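import Mathlib
import Cfsg.Agent.Lib.Helper18.LSDefs

/-!
# Project LS (helper18, S2333), piece DUALCARD: the common annihilator of two vectors having a
dual pair has index `q ^ 2`.
-/

set_option autoImplicit false

namespace Cfsg.Agent.Lib.Helper18.LS

open Matrix

universe u

variable {F : Type u} [Field F] {n : ℕ}

theorem dualcard_equiv (a b a' b' : Fin n → F) (h1 : a' ⬝ᵥ a = 1) (h2 : a' ⬝ᵥ b = 0)
    (h3 : b' ⬝ᵥ a = 0) (h4 : b' ⬝ᵥ b = 1) : Nonempty ((Fin n → F) ≃ ann a b × F × F) := by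
  refine ⟨{
    toFun := fun x => (⟨x - (x ⬝ᵥ a) • a' - (x ⬝ᵥ b) • b', ?_⟩, x ⬝ᵥ a, x ⬝ᵥ b)
    invFun := fun p => p.1.1 + p.2.1 • a' + p.2.2 • b'
    left_inv := ?_
    right_inv := ?_ }⟩
  · constructor
    · simp [sub_dotProduct, smul_dotProduct, h1, h3]
    · simp [sub_dotProduct, smul_dotProduct, h2, h4]
  · intro x
    show x - (x ⬝ᵥ a) • a' - (x ⬝ᵥ b) • b' + (x ⬝ᵥ a) • a' + (x ⬝ᵥ b) • b' = x
    abel
  · rintro ⟨⟨k, hk1, hk2⟩, s, t⟩
    have e1 : (k + s • a' + t • b') ⬝ᵥ a = s := by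
      simp [add_dotProduct, smul_dotProduct, h1, h3, hk1]
    have e2 : (k + s • a' + t • b') ⬝ᵥ b = t := by
      simp [add_dotProduct, smul_dotProduct, h2, h4, hk2]
    refine Prod.ext (Subtype.ext ?_) (Prod.ext e1 e2)
    simp only [e1, e2]
    abel

-- piece DUALCARD
theorem card_ann [Fintype F] (a b a' b' : Fin n → F) (h1 : a' ⬝ᵥ a = 1) (h2 : a' ⬝ᵥ b = 0)
    (h3 : b' ⬝ᵥ a = 0) (h4 : b' ⬝ᵥ b = 1) :
    Nat.card (ann a b) * Fintype.card F ^ 2 = Fintype.card F ^ n := by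
  obtain ⟨e⟩ := dualcard_equiv a b a' b' h1 h2 h3 h4
  have h := Nat.card_congr e
  rw [Nat.card_prod, Nat.card_prod, Nat.card_eq_fintype_card, Fintype.card_fun, Fintype.card_fin,
    Nat.card_eq_fintype_card (α := F)] at h
  rw [h, sq]

end Cfsg.Agent.Lib.Helper18.LS
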