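import Mathlib
import Cfsg.Agent.Lib.Helper18.LSDefs

/-!
# Project LS (helper18, S2333), piece FAITH1: a normal subgroup of a perfect group with simple
central quotient that contains a non-central element is the whole group.
-/

set_option autoImplicit false

namespace Cfsg.Agent.Lib.Helper18.LS

open Matrix
open scoped commutatorElement

universe u

variable {F : Type u} [Field F] {n : ℕ}

theorem faith1_comm_left {G : Type*} [Group G] (k z h : G) (hz : z ∈ Subgroup.center G) :
    ⁅k * z, h⁆ = ⁅k, h⁆ := by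
  rw [Subgroup.mem_center_iff] at hz
  have e : z * h * z⁻¹ = h := by rw [← hz h, mul_inv_cancel_right]
  calc ⁅k * z, h⁆ = k * (z * h * z⁻¹) * k⁻¹ * h⁻¹ := by rw [commutatorElement_def]; group
    _ = k * h * k⁻¹ * h⁻¹ := by rw [e]
    _ = ⁅k, h⁆ := (commutatorElement_def k h).symm

theorem faith1_comm_right {G : Type*} [Group G] (k h z : G) (hz : z ∈ Subgroup.center G) :
    ⁅k, h * z⁆ = ⁅k, h⁆ := by
  rw [Subgroup.mem_center_iff] at hz
  have e : z * k⁻¹ * z⁻¹ = k⁻¹ := by rw [← hz k⁻¹, mul_inv_cancel_right]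
  calc ⁅k, h * z⁆ = k * h * (z * k⁻¹ * z⁻¹) * h⁻¹ := by rw [commutatorElement_def]; group
    _ = k * h * k⁻¹ * h⁻¹ := by rw [e]
    _ = ⁅k, h⁆ := (commutatorElement_def k h).symm

-- piece FAITH1
theorem normal_eq_top_of_not_central {G : Type*} [Group G] (hperf : commutator G = ⊤)
    (hsimple : IsSimpleGroup (G ⧸ Subgroup.center G)) (K : Subgroup G) [K.Normal] (x : G)
    (hx : x ∈ K) (hxc : x ∉ Subgroup.center G) : K = ⊤ := by
  have hKbar : (K.map (QuotientGroup.mk' (Subgroup.center G))).Normal :=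
    Subgroup.Normal.map inferInstance _ (QuotientGroup.mk'_surjective _)
  have hne : K.map (QuotientGroup.mk' (Subgroup.center G)) ≠ ⊥ := by
    intro h
    have hmem : QuotientGroup.mk' (Subgroup.center G) x ∈
        K.map (QuotientGroup.mk' (Subgroup.center G)) := Subgroup.mem_map_of_mem _ hx
    rw [h, Subgroup.mem_bot, QuotientGroup.mk'_apply, QuotientGroup.eq_one_iff] at hmem
    exact hxc hmem
  have htop := (hKbar.eq_bot_or_eq_top).resolve_left hne
  have hdecomp : ∀ g : G, ∃ k ∈ K, ∃ z ∈ Subgroup.center G, g = k * z := by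
    intro g
    have hg : QuotientGroup.mk' (Subgroup.center G) g ∈
        K.map (QuotientGroup.mk' (Subgroup.center G)) := by
      rw [htop]
      trivial
    obtain ⟨k, hk, hkg⟩ := hg
    refine ⟨k, hk, k⁻¹ * g, ?_, by group⟩
    rw [QuotientGroup.mk'_apply, QuotientGroup.mk'_apply, QuotientGroup.eq] at hkg
    exact hkg
  rw [eq_top_iff, ← hperf, commutator_eq_closure, Subgroup.closure_le]
  rintro c ⟨g, h, rfl⟩
  obtain ⟨k, hk, z, hz, rfl⟩ := hdecomp g
  obtain ⟨k', hk', z', hz', rfl⟩ := hdecomp h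
  rw [faith1_comm_left k z _ hz, faith1_comm_right k k' z' hz', commutatorElement_def]
  exact K.mul_mem (K.mul_mem (K.mul_mem hk hk') (K.inv_mem hk)) (K.inv_mem hk')

end Cfsg.Agent.Lib.Helper18.LS
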