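import Mathlib
import Cfsg.Agent.Lib.Helper18.SLMDefs

/-!
# Project SLM (helper18, S2332), piece WTMAP (helper61)

The Levi subgroup `lev (SL_k)` permutes the weight spaces of `{x1 u}`: `ρ (lev g)` maps `wt l`
into `wt (g *ᵥ l)`; in particular the fixed space `wt 0` is `lev`-invariant.
-/

set_option autoImplicit false

namespace Cfsg.Agent.Lib.Helper18.SLM

open Matrix

universe u

variable {F : Type u} [Field F] [Fintype F]

omit [Fintype F] in
/-- the commutation rule of `x1` and `lev` (inline copy of piece LEVX1) -/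
theorem wtmap_lev_x1 {k : ℕ} (g : Matrix.SpecialLinearGroup (Fin k) F) (u : Fin k → F) :
    x1 u * lev g = lev g * x1 (Matrix.vecMul u (g : Matrix (Fin k) (Fin k) F)) := by
  apply Subtype.ext
  show (x1 u : Matrix.SpecialLinearGroup (Fin (k + 1)) F).1 * (lev g).1 =
    (lev g).1 * (x1 (Matrix.vecMul u (g : Matrix (Fin k) (Fin k) F))).1
  have e1 : (x1 u : Matrix.SpecialLinearGroup (Fin (k + 1)) F).1 =
      1 + vecMulVec (Pi.single 0 1) (Fin.cons 0 u : Fin (k + 1) → F) := rfl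
  have e2 : (x1 (Matrix.vecMul u (g : Matrix (Fin k) (Fin k) F)) :
      Matrix.SpecialLinearGroup (Fin (k + 1)) F).1 =
      1 + vecMulVec (Pi.single 0 1)
        (Fin.cons 0 (Matrix.vecMul u (g : Matrix (Fin k) (Fin k) F)) : Fin (k + 1) → F) := rfl
  have e3 : (lev g : Matrix.SpecialLinearGroup (Fin (k + 1)) F).1 =
      blk (g : Matrix (Fin k) (Fin k) F) := rfl
  rw [e1, e2, e3, add_mul, mul_add, one_mul, mul_one]
  congr 1
  ext i j
  refine Fin.cases ?_ (fun i' => ?_) i <;> refine Fin.cases ?_ (fun j' => ?_) j <;>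
    simp [Matrix.mul_apply, Fin.sum_univ_succ, vecMulVec_apply, Matrix.vecMul, dotProduct,
      Fin.succ_ne_zero]

-- piece WTMAP
theorem wt_map {V : Type*} [AddCommGroup V] [Module ℂ V] (ψ : AddChar F ℂ) {k : ℕ}
    (ρ : Representation ℂ (Matrix.SpecialLinearGroup (Fin (k + 1)) F) V)
    (g : Matrix.SpecialLinearGroup (Fin k) F) (l : Fin k → F) :
    ∀ v ∈ wt ψ ρ l, ρ (lev g) v ∈ wt ψ ρ ((g : Matrix (Fin k) (Fin k) F) *ᵥ l) := by
  intro v hv
  rw [mem_wt] at hv ⊢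
  intro u
  have h1 : ρ (x1 u) (ρ (lev g) v) = ρ (x1 u * lev g) v := by
    rw [map_mul]
    rfl
  have h2 : ρ (lev g * x1 (Matrix.vecMul u (g : Matrix (Fin k) (Fin k) F))) v =
      ρ (lev g) (ρ (x1 (Matrix.vecMul u (g : Matrix (Fin k) (Fin k) F))) v) := by
    rw [map_mul]
    rfl
  have h3 : l ⬝ᵥ Matrix.vecMul u (g : Matrix (Fin k) (Fin k) F) =
      ((g : Matrix (Fin k) (Fin k) F) *ᵥ l) ⬝ᵥ u := by
    rw [dotProduct_comm, ← Matrix.dotProduct_mulVec, dotProduct_comm]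
  rw [h1, wtmap_lev_x1, h2, hv, map_smul, h3]

theorem wt0_inv {V : Type*} [AddCommGroup V] [Module ℂ V] (ψ : AddChar F ℂ) {k : ℕ}
    (ρ : Representation ℂ (Matrix.SpecialLinearGroup (Fin (k + 1)) F) V) :
    ∀ g : Matrix.SpecialLinearGroup (Fin k) F, ∀ v ∈ wt ψ ρ 0, ρ (lev g) v ∈ wt ψ ρ 0 := by
  intro g v hv
  have h := wt_map ψ ρ g 0 v hv
  rw [Matrix.mulVec_zero] at h
  exact h

end Cfsg.Agent.Lib.Helper18.SLM
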