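import Mathlib
import Cfsg.Prelude.Def_Classical
import Cfsg.Agent.Lib.Helper18.UEDefs

/-!
# Project UE (helper18, S2335), piece NC: the root elements `uB E₀₀` and `lB E₀₀` do not commute.
-/

set_option autoImplicit false

namespace Cfsg.Agent.Lib.Helper18.UE

open Matrix

universe u

variable {F : Type u} [Field F] {m : ℕ}

theorem nc_E0_sq (hm : 1 ≤ m) : (E0 m F * E0 m F) ⟨0, hm⟩ ⟨0, hm⟩ = 1 := by
  rw [Matrix.mul_apply, Finset.sum_eq_single (⟨0, hm⟩ : Fin m)]
  · simp [E0]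
  · intro k _ hk
    have hk0 : k.val ≠ 0 := fun h => hk (Fin.ext h)
    simp [E0, hk0]
  · intro h
    exact absurd (Finset.mem_univ _) h

-- piece NC
theorem uB_lB_ne (hm : 1 ≤ m) : uB (E0 m F) * lB (E0 m F) ≠ lB (E0 m F) * uB (E0 m F) := by
  intro h
  have h00 := congrFun (congrFun h (Sum.inl ⟨0, hm⟩)) (Sum.inl ⟨0, hm⟩)
  unfold uB lB at h00
  rw [fromBlocks_multiply, fromBlocks_multiply] at h00
  simp only [fromBlocks_apply₁₁, Matrix.add_apply, nc_E0_sq hm, Matrix.one_mul,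
    Matrix.zero_mul, Matrix.one_apply_eq, add_zero] at h00
  exact one_ne_zero (add_eq_left.mp h00)

end Cfsg.Agent.Lib.Helper18.UE
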