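import Mathlib
import Cfsg.Agent.Lib.Helper21.DCovModel
import Cfsg.Prelude.Def_SporadicB

/-!
# A nonsplit double cover of `A₈` with two involutions (piece K1 for helper70, by helper61)

The cover is helper21's Clifford double cover `(dc_cliffData 8).grp`.  Its centre is generated by
the central involution `z` (as `A₈` has trivial centre), it is nonsplit because `z` is a
commutator, and the lift `y` of `(0 1)(2 3)(4 5)(6 7)` is a non-central involution.
-/

set_option autoImplicit false

namespace Cfsg.Agent.Lib.Helper61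

open Equiv Cfsg.Agent.Lib.Helper21

open scoped commutatorElement

/-- A central extension by a central involution lying in the commutator subgroup, with
centreless quotient, is a nonsplit double cover. -/
theorem nonsplit_double_cover_of {Γ K : Type*} [Group Γ] [Group K] (z : Γ)
    (hz : z ∈ Subgroup.center Γ) (hz2 : orderOf z = 2) (hzc : z ∈ commutator Γ)
    [hN : (Subgroup.zpowers z).Normal] (e : Γ ⧸ Subgroup.zpowers z ≃* K)
    (hK : Subgroup.center K = ⊥) : Cfsg.IsNonsplitDoubleCover Γ K := by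
  have hcen : Subgroup.center Γ = Subgroup.zpowers z := by
    apply le_antisymm
    · intro c hc
      have h1 : e (QuotientGroup.mk c) ∈ Subgroup.center K := by
        rw [Subgroup.mem_center_iff]
        intro k
        obtain ⟨q, rfl⟩ := e.surjective k
        obtain ⟨g, rfl⟩ := QuotientGroup.mk_surjective q
        rw [← map_mul, ← map_mul, ← QuotientGroup.mk_mul, ← QuotientGroup.mk_mul,
          (Subgroup.mem_center_iff.mp hc g)]
      rw [hK, Subgroup.mem_bot] at h1
      have h2 : (QuotientGroup.mk c : Γ ⧸ Subgroup.zpowers z) = 1 := by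
        apply e.injective
        rw [h1, map_one]
      exact (QuotientGroup.eq_one_iff c).mp h2
    · rw [Subgroup.zpowers_le]
      exact hz
  have hz1 : z ≠ 1 := by
    intro h
    rw [h, orderOf_one] at hz2
    omega
  refine ⟨?_, ⟨(QuotientGroup.quotientMulEquivOfEq hcen).trans e⟩, ?_⟩
  · rw [hcen, Nat.card_zpowers, hz2]
  · intro L hL
    have hidx : L.index = 2 := by
      rw [hL.index_eq_card, hcen, Nat.card_zpowers, hz2]
    have hcomm : commutator Γ ≤ L := by
      rw [commutator_def, Subgroup.commutator_le]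
      intro a _ b _
      rw [commutatorElement_def, Subgroup.mul_mem_iff_of_index_two hidx,
        Subgroup.mul_mem_iff_of_index_two hidx, Subgroup.mul_mem_iff_of_index_two hidx,
        inv_mem_iff, inv_mem_iff]
      tauto
    have hzL : z ∈ L := hcomm hzc
    have hdisj := hL.disjoint
    rw [Subgroup.disjoint_def] at hdisj
    exact hz1 (hdisj hz hzL)

section Ring

variable {A : Type*} [Ring A]

theorem anti_pair_sq {a b : A} (hab : a * b = -(b * a)) (ha : a * a = -1) (hb : b * b = -1) :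
    a * b * (a * b) = -1 := by
  have hba : b * a = -(a * b) := by rw [hab, neg_neg]
  calc a * b * (a * b) = a * (b * a) * b := by simp only [mul_assoc]
    _ = -(a * a * (b * b)) := by rw [hba]; simp only [mul_neg, neg_mul, mul_assoc]
    _ = -1 := by rw [ha, hb]; simp

theorem anti_pairs_comm {a b c d : A} (hac : a * c = -(c * a)) (had : a * d = -(d * a))
    (hbc : b * c = -(c * b)) (hbd : b * d = -(d * b)) : a * b * (c * d) = c * d * (a * b) := by
  calc a * b * (c * d) = a * (b * c) * d := by simp only [mul_assoc]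
    _ = -(a * c * (b * d)) := by rw [hbc]; simp only [mul_neg, neg_mul, mul_assoc]
    _ = -(c * (a * d) * b) := by rw [hac, hbd]; simp only [mul_neg, neg_mul, mul_assoc, neg_neg]
    _ = c * d * (a * b) := by rw [had]; simp only [mul_neg, neg_mul, mul_assoc, neg_neg]

theorem comm_sq_of {w₁ w₂ : A} (h1 : w₁ * w₁ = -1) (h2 : w₂ * w₂ = -1)
    (hc : w₁ * w₂ = w₂ * w₁) : w₁ * w₂ * (w₁ * w₂) = 1 := by
  calc w₁ * w₂ * (w₁ * w₂) = w₁ * (w₂ * w₁) * w₂ := by simp only [mul_assoc]
    _ = w₁ * w₁ * (w₂ * w₂) := by rw [← hc]; simp only [mul_assoc]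
    _ = 1 := by rw [h1, h2]; simp

end Ring

theorem cliff_u_anti' {A : Type*} [Ring A] {n : ℕ} {E : Fin n → A} {S : Set A}
    (h : CliffData E S) (i j k l : Fin n) (hik : i ≠ k) (hil : i ≠ l) (hjk : j ≠ k)
    (hjl : j ≠ l) : (E i - E j) * (E k - E l) = -((E k - E l) * (E i - E j)) := by
  simp only [sub_mul, mul_sub]
  rw [h.anti i k hik, h.anti i l hil, h.anti j k hjk, h.anti j l hjl]
  abel

local notation "CA8" => Module.End (ZMod 3) ((Fin 8 → ZMod 2) → ZMod 3)

theorem a8_cover_two_involutions : ∃ (H : Type) (_ : Group H) (_ : Finite H),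
    Cfsg.IsNonsplitDoubleCover H (alternatingGroup (Fin 8)) ∧
      ∃ x y : H, x ≠ y ∧ orderOf x = 2 ∧ orderOf y = 2 := by
  have h := dc_cliffData 8
  have : Finite (Module.End (ZMod 3) ((Fin 8 → ZMod 2) → ZMod 3)) :=
    Finite.of_injective (fun f : Module.End (ZMod 3) ((Fin 8 → ZMod 2) → ZMod 3) =>
      (f : ((Fin 8 → ZMod 2) → ZMod 3) → ((Fin 8 → ZMod 2) → ZMod 3))) DFunLike.coe_injective
  obtain ⟨z, hz, hz2, hzc, hN, ⟨e⟩⟩ := h.main (by norm_num)
  have hK : Subgroup.center (alternatingGroup (Fin 8)) = ⊥ :=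
    alternatingGroup.center_eq_bot (by simp)
  have hns := nonsplit_double_cover_of z hz hz2 hzc e hK
  -- the lift of (0 1)(2 3)(4 5)(6 7)
  have m1 := h.gen_mem (0 : Fin 8) 1 2 3 (by decide) (by decide)
  have m2 := h.gen_mem (4 : Fin 8) 5 6 7 (by decide) (by decide)
  have m3 := h.gen_mem (0 : Fin 8) 1 2 4 (by decide) (by decide)
  have u01 := h.u_sq (0 : Fin 8) 1 (by decide)
  have u23 := h.u_sq (2 : Fin 8) 3 (by decide)
  have u45 := h.u_sq (4 : Fin 8) 5 (by decide)
  have u67 := h.u_sq (6 : Fin 8) 7 (by decide)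
  have w1 := anti_pair_sq (cliff_u_anti' h (0 : Fin 8) 1 2 3 (by decide) (by decide) (by decide)
    (by decide)) u01 u23
  have w2 := anti_pair_sq (cliff_u_anti' h (4 : Fin 8) 5 6 7 (by decide) (by decide) (by decide)
    (by decide)) u45 u67
  have wc := anti_pairs_comm
    (cliff_u_anti' h (0 : Fin 8) 1 4 5 (by decide) (by decide) (by decide) (by decide))
    (cliff_u_anti' h (0 : Fin 8) 1 6 7 (by decide) (by decide) (by decide) (by decide))
    (cliff_u_anti' h (2 : Fin 8) 3 4 5 (by decide) (by decide) (by decide) (by decide))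
    (cliff_u_anti' h (2 : Fin 8) 3 6 7 (by decide) (by decide) (by decide) (by decide))
  have hsq := comm_sq_of w1 w2 wc
  obtain ⟨y, hy⟩ : ∃ y : h.grp, (y : CA8ˣ × Perm (Fin 8)) =
      (h.wUnit (0 : Fin 8) 1 2 3 (by decide) (by decide), swap (0 : Fin 8) 1 * swap 2 3)
        * (h.wUnit (4 : Fin 8) 5 6 7 (by decide) (by decide), swap (4 : Fin 8) 5 * swap 6 7) :=
    ⟨⟨_, mul_mem m1 m2⟩, rfl⟩
  have hy2 : y ^ 2 = 1 := by
    apply Subtype.ext
    rw [pow_two]
    show (y : CA8ˣ × Perm (Fin 8)) * (y : CA8ˣ × Perm (Fin 8)) = 1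
    rw [hy]
    refine Prod.ext (Units.ext ?_) ?_
    · exact hsq
    · show swap (0 : Fin 8) 1 * swap 2 3 * (swap (4 : Fin 8) 5 * swap 6 7)
        * (swap (0 : Fin 8) 1 * swap 2 3 * (swap (4 : Fin 8) 5 * swap 6 7)) = 1
      decide
  have hy1 : y ≠ 1 := by
    intro h1
    have h2 := congrArg (fun g : h.grp => (g : CA8ˣ × Perm (Fin 8)).2) h1
    simp only [hy] at h2
    revert h2
    show ¬ (swap (0 : Fin 8) 1 * swap 2 3 * (swap (4 : Fin 8) 5 * swap 6 7) = 1)
    decide
  have hyz : z ≠ y := by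
    intro hzy
    have h1 := Subgroup.mem_center_iff.mp hz ⟨_, m3⟩
    rw [hzy] at h1
    have h2 := congrArg (fun g : h.grp => (g : CA8ˣ × Perm (Fin 8)).2) h1
    simp only [Subgroup.coe_mul, hy] at h2
    revert h2
    show ¬ (swap (0 : Fin 8) 1 * swap 2 4 * (swap (0 : Fin 8) 1 * swap 2 3
        * (swap (4 : Fin 8) 5 * swap 6 7))
      = swap (0 : Fin 8) 1 * swap 2 3 * (swap (4 : Fin 8) 5 * swap 6 7)
        * (swap (0 : Fin 8) 1 * swap 2 4))
    decide
  exact ⟨h.grp, inferInstance, inferInstance, hns, z, y, hyz, hz2,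
    orderOf_eq_prime hy2 hy1⟩

end Cfsg.Agent.Lib.Helper61
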