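import Mathlib

/-!
# Involutions of `A_n`, `n ≤ 7`, are conjugate in `A_n` (piece K2 for helper70, by helper61)
-/

set_option autoImplicit false

namespace Cfsg.Agent.Lib.Helper61

open Equiv

/-- An even involution on at most 7 points has cycle type `{2, 2}`. -/
theorem cycleType_of_even_involution (n : ℕ) (hn : n ≤ 7) (v : Perm (Fin n))
    (hv : orderOf v = 2) (hs : Perm.sign v = 1) : v.cycleType = Multiset.replicate 2 2 := by
  obtain ⟨k, hk⟩ := Perm.cycleType_prime_order (σ := v) (by rw [hv]; exact Nat.prime_two)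
  rw [hv] at hk
  have h1 : v.cycleType.sum ≤ 7 := by
    rw [Perm.sum_cycleType]
    calc v.support.card ≤ Fintype.card (Fin n) := Finset.card_le_univ _
      _ = n := Fintype.card_fin n
      _ ≤ 7 := hn
  rw [hk, Multiset.sum_replicate, smul_eq_mul] at h1
  have h2 := Perm.sign_of_cycleType v
  rw [hs, hk, Multiset.sum_replicate, Multiset.card_replicate, smul_eq_mul] at h2
  have hk3 : k ≤ 2 := by omega
  interval_cases k
  · exact absurd h2 (by decide)
  · exact hk
  · exact absurd h2 (by decide)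

theorem alt_involutions_conj (n : ℕ) (hn : n ≤ 7) (v w : alternatingGroup (Fin n))
    (hv : orderOf v = 2) (hw : orderOf w = 2) :
    ∃ c : alternatingGroup (Fin n), c * v * c⁻¹ = w := by
  have hv' : orderOf (v : Perm (Fin n)) = 2 := by rw [Subgroup.orderOf_coe]; exact hv
  have hw' : orderOf (w : Perm (Fin n)) = 2 := by rw [Subgroup.orderOf_coe]; exact hw
  have hsv : Perm.sign (v : Perm (Fin n)) = 1 := Perm.mem_alternatingGroup.mp v.2
  have hsw : Perm.sign (w : Perm (Fin n)) = 1 := Perm.mem_alternatingGroup.mp w.2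
  have hcv := cycleType_of_even_involution n hn _ hv' hsv
  have hcw := cycleType_of_even_involution n hn _ hw' hsw
  have hconj : IsConj (v : Perm (Fin n)) (w : Perm (Fin n)) := by
    rw [Perm.isConj_iff_cycleType_eq, hcv, hcw]
  obtain ⟨c₀, hc₀⟩ := isConj_iff.mp hconj
  rcases Int.units_eq_one_or (Perm.sign c₀) with hs | hs
  · refine ⟨⟨c₀, Perm.mem_alternatingGroup.mpr hs⟩, ?_⟩
    apply Subtype.ext
    exact hc₀
  · -- a transposition commuting with `v`
    have hv1 : (v : Perm (Fin n)) ≠ 1 := by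
      intro h
      rw [h, orderOf_one] at hv'
      omega
    obtain ⟨x, hx⟩ : ∃ x, (v : Perm (Fin n)) x ≠ x := by
      by_contra hcon
      push Not at hcon
      exact hv1 (Perm.ext hcon)
    have hvv : (v : Perm (Fin n)) ((v : Perm (Fin n)) x) = x := by
      have h2 : (v : Perm (Fin n)) ^ 2 = 1 := by rw [← hv']; exact pow_orderOf_eq_one _
      have h3 := congrArg (fun f : Perm (Fin n) => f x) h2
      simpa [pow_two] using h3
    have hcomm : (v : Perm (Fin n)) * swap x ((v : Perm (Fin n)) x)
        = swap x ((v : Perm (Fin n)) x) * (v : Perm (Fin n)) := by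
      rw [Equiv.mul_swap_eq_swap_mul, hvv, swap_comm]
    have hs2 : Perm.sign (c₀ * swap x ((v : Perm (Fin n)) x)) = 1 := by
      rw [map_mul, hs, Perm.sign_swap (Ne.symm hx)]
      decide
    refine ⟨⟨c₀ * swap x ((v : Perm (Fin n)) x), Perm.mem_alternatingGroup.mpr hs2⟩, ?_⟩
    apply Subtype.ext
    show c₀ * swap x ((v : Perm (Fin n)) x) * (v : Perm (Fin n))
      * (c₀ * swap x ((v : Perm (Fin n)) x))⁻¹ = (w : Perm (Fin n))
    rw [mul_inv_rev, mul_assoc c₀, ← hcomm, ← hc₀]
    group

end Cfsg.Agent.Lib.Helper61
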