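import Mathlib
import Cfsg.Prelude.Def_CaseTheorems
import Cfsg.Agent.S3742
import Cfsg.Agent.Lib.Helper12.CharTwo
import Cfsg.Agent.Lib.Helper30.Cores

/-!
# S3304, piece S-main (helper61)

A finite solvable group `H` with `O(H) = 1`, without normal Sylow 2-subgroup, whose `O_2(H)` is
cyclic or generalized quaternion: then `O_2(H) ≅ Q8`, `|H| = 48`, `|Z(H)| = 2`, `H/Z(H) ≅ S4`.
-/

set_option autoImplicit false
set_option linter.unusedSectionVars false

namespace Cfsg.Agent.Lib.Helper61.GL23Struct

open Cfsg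

theorem q8_center' : ∀ g : QuaternionGroup 2, (∀ y : QuaternionGroup 2, g * y = y * g) →
    g = 1 ∨ g = QuaternionGroup.a 2 := by decide

theorem q8_a2_central : ∀ y : QuaternionGroup 2, QuaternionGroup.a 2 * y = y * QuaternionGroup.a 2 := by
  decide

theorem q8_a2_ne_one : (QuaternionGroup.a 2 : QuaternionGroup 2) ≠ 1 := by decide

theorem arith48 (N m : ℕ) (hN : N = 2 * m) (hm : m ∣ 24) (h8 : 8 ∣ N) (h8' : N ≠ 8)
    (h16 : N ≠ 16) (h24 : N ≠ 24) : N = 48 := by
  have hm24 : m ≤ 24 := Nat.le_of_dvd (by norm_num) hm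
  have hmpos : 0 < m := Nat.pos_of_dvd_of_pos hm (by norm_num)
  interval_cases m <;> omega

variable {H : Type*} [Group H] [Finite H]

/-- If the Sylow 2-subgroup is not normal, the group is not a 2-group. -/
theorem not_two_group (hnn : ¬ ∃ P : Sylow 2 H, (P : Subgroup H).Normal) : ¬ IsPGroup 2 H := by
  intro h2
  apply hnn
  have htop : IsPGroup 2 (⊤ : Subgroup H) := h2.to_subgroup ⊤
  refine ⟨htop.toSylow (by rw [Subgroup.index_top]; norm_num), ?_⟩
  show (⊤ : Subgroup H).Normal
  infer_instance

/-- If the automorphism group of a normal self-centralizing 2-subgroup is a 2-group, so is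
the group. -/
theorem two_group_of_aut (O : Subgroup H) [O.Normal] (hO2 : IsPGroup 2 O)
    (hC : Subgroup.centralizer (O : Set H) ≤ O) (hA : IsPGroup 2 (MulAut O)) : IsPGroup 2 H := by
  intro h
  obtain ⟨k, hk⟩ := hA (MulAut.conjNormal h)
  have h1 : h ^ 2 ^ k ∈ Subgroup.centralizer (O : Set H) := by
    rw [Subgroup.mem_centralizer_iff]
    intro o ho
    have h2 := congrArg (fun φ : MulAut O => ((φ ⟨o, ho⟩ : O) : H)) hk
    simp only [← map_pow, MulAut.conjNormal_apply, MulAut.one_apply] at h2
    exact (mul_inv_eq_iff_eq_mul.mp h2).symm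
  obtain ⟨m, hm⟩ := hO2 ⟨h ^ 2 ^ k, hC h1⟩
  refine ⟨k + m, ?_⟩
  have h3 := congrArg (fun o : O => (o : H)) hm
  simp only [Subgroup.coe_pow, Subgroup.coe_one] at h3
  rw [pow_add, pow_mul]
  exact h3

/-- Piece S-main of S3304 (with pieces PC and AUT as hypotheses). -/
theorem structure_of_core_free_aux (hs : Group.IsSolvable H) (hO : Cfsg.pPrimeCore 2 H = ⊥)
    (hnn : ¬ ∃ P : Sylow 2 H, (P : Subgroup H).Normal)
    (hPC : IsCyclic (Cfsg.pCore 2 H) ∨
      ∃ n : ℕ, Nonempty (Cfsg.pCore 2 H ≃* QuaternionGroup (2 ^ n)))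
    (hAUT : (IsCyclic (Cfsg.pCore 2 H) ∨
        ∃ n : ℕ, 2 ≤ n ∧ Nonempty (Cfsg.pCore 2 H ≃* QuaternionGroup (2 ^ n))) →
      IsPGroup 2 (MulAut (Cfsg.pCore 2 H))) :
    Nat.card H = 48 ∧ Nat.card (Subgroup.center H) = 2 ∧
      Nonempty (H ⧸ Subgroup.center H ≃* Equiv.Perm (Fin 4)) ∧
      ∃ Q : Subgroup H, Q.Normal ∧ Nonempty (Q ≃* QuaternionGroup 2) ∧
        Subgroup.centralizer (Q : Set H) ≤ Q := by
  have := hs
  have hC : Subgroup.centralizer (Cfsg.pCore 2 H : Set H) ≤ Cfsg.pCore 2 H :=
    Cfsg.Agent.Lib.Helper12.centralizer_pCore_two_le hO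
  have hO2 : IsPGroup 2 (Cfsg.pCore 2 H) := Cfsg.Agent.Lib.Helper30.pCore_isPGroup 2
  have hn2 := not_two_group hnn
  have hQ8 : Nonempty (Cfsg.pCore 2 H ≃* QuaternionGroup 2) := by
    rcases hPC with hcyc | ⟨n, ⟨e⟩⟩
    · exact absurd (two_group_of_aut _ hO2 hC (hAUT (Or.inl hcyc))) hn2
    · rcases Nat.lt_or_ge n 2 with hlt | hge
      · interval_cases n
        · have hcyc : IsCyclic (Cfsg.pCore 2 H) := by
            have : IsCyclic (QuaternionGroup (2 ^ 0)) := by
              show IsCyclic (QuaternionGroup 1)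
              exact QuaternionGroup.quaternionGroup_one_isCyclic
            exact isCyclic_of_surjective e.symm.toMonoidHom e.symm.surjective
          exact absurd (two_group_of_aut _ hO2 hC (hAUT (Or.inl hcyc))) hn2
        · exact ⟨e⟩
      · exact absurd (two_group_of_aut _ hO2 hC (hAUT (Or.inr ⟨n, hge, ⟨e⟩⟩))) hn2
  obtain ⟨e⟩ := hQ8
  have hcard8 : Nat.card (Cfsg.pCore 2 H) = 8 := by
    rw [Nat.card_congr e.toEquiv, Nat.card_eq_fintype_card, QuaternionGroup.card]
  obtain ⟨σ⟩ := Cfsg.Agent.S3742.result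
  -- the conjugation action, as a homomorphism to `S4`
  obtain ⟨B, hB⟩ : ∃ B : H →* Equiv.Perm (Fin 4), ∀ h : H,
      B h = σ (MulAut.congr e (MulAut.conjNormal h)) :=
    ⟨(σ.toMonoidHom.comp (MulAut.congr e).toMonoidHom).comp MulAut.conjNormal, fun h => rfl⟩
  have hker : B.ker = Subgroup.centralizer (Cfsg.pCore 2 H : Set H) := by
    ext h
    rw [MonoidHom.mem_ker, hB, Subgroup.mem_centralizer_iff]
    constructor
    · intro h1 o ho
      have h2 : MulAut.conjNormal h = (1 : MulAut (Cfsg.pCore 2 H)) := by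
        apply (MulAut.congr e).injective
        apply σ.injective
        rw [h1, map_one, map_one]
      have h3 := congrArg (fun φ : MulAut (Cfsg.pCore 2 H) => ((φ ⟨o, ho⟩ : Cfsg.pCore 2 H) : H)) h2
      simp only [MulAut.conjNormal_apply, MulAut.one_apply] at h3
      exact (mul_inv_eq_iff_eq_mul.mp h3).symm
    · intro h1
      have h2 : MulAut.conjNormal h = (1 : MulAut (Cfsg.pCore 2 H)) := by
        ext o
        rw [MulAut.conjNormal_apply, MulAut.one_apply]
        exact mul_inv_eq_iff_eq_mul.mpr (h1 o o.2).symm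
      rw [h2, map_one, map_one]
  -- the centralizer is `{1, z}`
  obtain ⟨z, hz⟩ : ∃ z : H, z = ((e.symm (QuaternionGroup.a 2) : Cfsg.pCore 2 H) : H) := ⟨_, rfl⟩
  have hz1 : z ≠ 1 := by
    rw [hz]
    intro h
    have h1 : e.symm (QuaternionGroup.a 2) = 1 := Subtype.ext h
    have h2 : (QuaternionGroup.a 2 : QuaternionGroup 2) = 1 := by
      rw [← e.apply_symm_apply (QuaternionGroup.a 2), h1, map_one]
    exact q8_a2_ne_one h2
  have hzC : z ∈ Subgroup.centralizer (Cfsg.pCore 2 H : Set H) := by
    rw [Subgroup.mem_centralizer_iff]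
    intro o ho
    have h1 : (⟨o, ho⟩ : Cfsg.pCore 2 H) * e.symm (QuaternionGroup.a 2)
        = e.symm (QuaternionGroup.a 2) * ⟨o, ho⟩ := by
      apply e.injective
      rw [map_mul, map_mul, e.apply_symm_apply]
      exact (q8_a2_central _).symm
    have h2 := congrArg (fun o : Cfsg.pCore 2 H => (o : H)) h1
    simp only [Subgroup.coe_mul] at h2
    rw [hz]
    exact h2
  have hCz : ∀ c ∈ Subgroup.centralizer (Cfsg.pCore 2 H : Set H), c = 1 ∨ c = z := by
    intro c hc
    have hcO : c ∈ Cfsg.pCore 2 H := hC hc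
    have h1 : ∀ y : QuaternionGroup 2, e ⟨c, hcO⟩ * y = y * e ⟨c, hcO⟩ := by
      intro y
      have h2 : (⟨c, hcO⟩ : Cfsg.pCore 2 H) * e.symm y = e.symm y * ⟨c, hcO⟩ := by
        apply Subtype.ext
        simp only [Subgroup.coe_mul]
        exact ((Subgroup.mem_centralizer_iff.mp hc) _ (e.symm y).2).symm
      have h3 := congrArg e h2
      rw [map_mul, map_mul, e.apply_symm_apply] at h3
      exact h3
    rcases q8_center' _ h1 with h2 | h2
    · left
      have h3 : (⟨c, hcO⟩ : Cfsg.pCore 2 H) = 1 := by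
        apply e.injective
        rw [h2, map_one]
      exact congrArg (fun o : Cfsg.pCore 2 H => (o : H)) h3
    · right
      have h3 : (⟨c, hcO⟩ : Cfsg.pCore 2 H) = e.symm (QuaternionGroup.a 2) := by
        apply e.injective
        rw [h2, e.apply_symm_apply]
      rw [hz]
      exact congrArg (fun o : Cfsg.pCore 2 H => (o : H)) h3
  have hCcard : Nat.card (Subgroup.centralizer (Cfsg.pCore 2 H : Set H)) = 2 := by
    rw [Nat.card_eq_two_iff]
    refine ⟨1, ⟨z, hzC⟩, ?_, ?_⟩
    · intro h
      exact hz1 (congrArg (fun o : Subgroup.centralizer (Cfsg.pCore 2 H : Set H) => (o : H)) h).symm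
    · rw [Set.eq_univ_iff_forall]
      intro c
      rcases hCz c.1 c.2 with h | h
      · left
        exact Subtype.ext h
      · right
        exact Subtype.ext h
  -- the centre
  have hcen : Subgroup.center H = Subgroup.centralizer (Cfsg.pCore 2 H : Set H) := by
    apply le_antisymm
    · exact Subgroup.center_le_centralizer _
    · intro c hc
      rcases hCz c hc with h | h
      · rw [h]
        exact one_mem _
      · rw [h, Subgroup.mem_center_iff]
        intro g
        -- `g z g⁻¹` centralizes `O`, is not `1`, hence equals `z`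
        have h1 : g * z * g⁻¹ ∈ Subgroup.centralizer (Cfsg.pCore 2 H : Set H) := by
          rw [Subgroup.mem_centralizer_iff]
          intro o ho
          have ho' : g⁻¹ * o * g ∈ Cfsg.pCore 2 H := by
            have := (Cfsg.pCore_normal 2 H).conj_mem o ho g⁻¹
            rwa [inv_inv] at this
          have h2 := (Subgroup.mem_centralizer_iff.mp hzC) _ ho'
          calc o * (g * z * g⁻¹) = g * ((g⁻¹ * o * g) * z) * g⁻¹ := by group
            _ = g * (z * (g⁻¹ * o * g)) * g⁻¹ := by rw [h2]
            _ = g * z * g⁻¹ * o := by group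
        rcases hCz _ h1 with h2 | h2
        · exfalso
          apply hz1
          have : z = g⁻¹ * (g * z * g⁻¹) * g := by group
          rw [this, h2]
          group
        · calc g * z = (g * z * g⁻¹) * g := by group
            _ = z * g := by rw [h2]
  -- the order
  have hcardH : Nat.card H = 48 := by
    have h1 := Subgroup.card_eq_card_quotient_mul_card_subgroup B.ker
    have h2 : Nat.card (H ⧸ B.ker) = Nat.card B.range :=
      Nat.card_congr (QuotientGroup.quotientKerEquivRange B).toEquiv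
    have h3 : Nat.card B.range ∣ 24 := by
      have h := Subgroup.card_subgroup_dvd_card B.range
      rw [Nat.card_perm, Nat.card_fin] at h
      exact h
    have h4 : Nat.card B.ker = 2 := by rw [hker]; exact hCcard
    have h5 : 8 ∣ Nat.card H := by
      have h := Subgroup.card_subgroup_dvd_card (Cfsg.pCore 2 H)
      rwa [hcard8] at h
    apply arith48 (Nat.card H) (Nat.card B.range) (by rw [h1, h2, h4, mul_comm]) h3 h5
    · intro h
      exact hn2 (IsPGroup.of_card (n := 3) (by rw [h]; norm_num))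
    · intro h
      exact hn2 (IsPGroup.of_card (n := 4) (by rw [h]; norm_num))
    · intro h
      apply hnn
      have h6 := Subgroup.card_mul_index (Cfsg.pCore 2 H)
      rw [hcard8, h] at h6
      have h7 : (Cfsg.pCore 2 H).index = 3 := by omega
      refine ⟨hO2.toSylow (by rw [h7]; norm_num), ?_⟩
      show (Cfsg.pCore 2 H).Normal
      infer_instance
  have hsurj : Function.Surjective B := by
    rw [← MonoidHom.range_eq_top]
    apply Subgroup.eq_top_of_card_eq
    have h1 := Subgroup.card_eq_card_quotient_mul_card_subgroup B.ker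
    have h2 : Nat.card (H ⧸ B.ker) = Nat.card B.range :=
      Nat.card_congr (QuotientGroup.quotientKerEquivRange B).toEquiv
    have h4 : Nat.card B.ker = 2 := by rw [hker]; exact hCcard
    rw [hcardH, h2, h4] at h1
    rw [Nat.card_perm, Nat.card_fin]
    have : Nat.card B.range = 24 := by omega
    rw [this]
    rfl
  refine ⟨hcardH, by rw [hcen]; exact hCcard, ⟨?_⟩, Cfsg.pCore 2 H, inferInstance, ⟨e⟩, hC⟩
  exact (QuotientGroup.quotientMulEquivOfEq (hcen.trans hker.symm)).trans
    (QuotientGroup.quotientKerEquivOfSurjective B hsurj)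

end Cfsg.Agent.Lib.Helper61.GL23Struct
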