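import Mathlib
import Cfsg.Agent.S2133

/-!
# S2134 (helper70), piece ASM: `C(z) = W ⋊ H₀` acting on the cosets of `H₀`, fed to
`Cfsg.Agent.S2133.abstract_iso`.
-/

set_option autoImplicit false

namespace Cfsg.Agent.Lib.Helper61.HeCASM

/-- PIECE ASM.  `C(z) = W ⋊ H₀` acting on the cosets of `H₀`, fed to `Cfsg.Agent.S2133.abstract_iso`. -/
theorem cent_iso_of_data {G : Type} [Group G] [Finite G] (z : G)
    (wOf : (Fin 4 → ZMod 2) → G) (hadd : ∀ a b, wOf (a + b) = wOf a * wOf b)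
    (hw0 : wOf (Pi.single 0 1) = z)
    (H₀ : Subgroup G)
    (hWH : ∀ a, wOf a ∈ H₀ → a = 0)
    (hnorm : ∀ h ∈ H₀, ∀ a, ∃ b, h * wOf a * h⁻¹ = wOf b)
    (hcz : ∀ h ∈ H₀, h * z = z * h)
    (hub : Nat.card (Subgroup.centralizer ({z} : Set G)) ≤ 21504)
    (f : Fin 1344 → G) (hf : ∀ i, f i ∈ H₀)
    (hdist : ∀ i j, (∀ a, f i * wOf a * (f i)⁻¹ = f j * wOf a * (f j)⁻¹) → i = j)
    (s : Matrix.SpecialLinearGroup (Fin 5) (ZMod 2))
    (hs : (s : Matrix (Fin 5) (Fin 5) (ZMod 2)) = Matrix.transvection 0 1 1) :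
    Nonempty (↥(Subgroup.centralizer ({z} : Set G)) ≃*
      ↥(Subgroup.centralizer ({s} : Set (Matrix.SpecialLinearGroup (Fin 5) (ZMod 2))))) := by
  classical
  -- basic facts
  have w0 : wOf 0 = 1 := by
    have := hadd 0 0
    rw [add_zero] at this
    exact left_eq_mul.mp this
  have haa : ∀ a : Fin 4 → ZMod 2, a + a = 0 := fun a => by
    ext i; exact CharTwo.add_self_eq_zero (a i)
  have hww : ∀ a, wOf a * wOf a = 1 := fun a => by rw [← hadd, haa, w0]
  have hwinv : ∀ a, (wOf a)⁻¹ = wOf a := fun a => inv_eq_of_mul_eq_one_right (hww a)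
  have hwcomm : ∀ a b, wOf a * wOf b = wOf b * wOf a := fun a b => by
    rw [← hadd, ← hadd, add_comm]
  have hwz : ∀ a, wOf a * z = z * wOf a := fun a => by rw [← hw0]; exact hwcomm _ _
  have hwC : ∀ a, wOf a ∈ Subgroup.centralizer ({z} : Set G) := fun a =>
    Subgroup.mem_centralizer_singleton_iff.mpr (hwz a)
  have hsum0 : ∀ a b : Fin 4 → ZMod 2, a + b = 0 → a = b := by
    intro a b h
    calc a = a + (b + b) := by rw [haa, add_zero]
      _ = (a + b) + b := by rw [add_assoc]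
      _ = b := by rw [h, zero_add]
  have hwH : ∀ a b, wOf a * wOf b ∈ H₀ → a = b := fun a b h =>
    hsum0 a b (hWH _ (by rw [hadd]; exact h))
  have hH₀C : H₀ ≤ Subgroup.centralizer ({z} : Set G) := fun h hh =>
    Subgroup.mem_centralizer_singleton_iff.mpr (hcz h hh)
  -- counting
  obtain ⟨φ, hφ⟩ : ∃ φ : (Fin 4 → ZMod 2) × H₀ → Subgroup.centralizer ({z} : Set G),
      ∀ p, (φ p : G) = wOf p.1 * p.2.1 :=
    ⟨fun p => ⟨wOf p.1 * p.2.1, Subgroup.mul_mem _ (hwC p.1) (hH₀C p.2.2)⟩, fun p => rfl⟩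
  have hφinj : Function.Injective φ := by
    rintro ⟨a, h⟩ ⟨b, h'⟩ heq
    have heq' : wOf a * h.1 = wOf b * h'.1 := by
      have := congrArg Subtype.val heq
      rwa [hφ, hφ] at this
    have hab : a = b := by
      apply hwH
      have e : wOf a * wOf b = h'.1 * h.1⁻¹ := by
        rw [hwcomm, ← hwinv b, inv_mul_eq_iff_eq_mul, ← mul_assoc, eq_mul_inv_iff_mul_eq]
        exact heq'
      rw [e]
      exact H₀.mul_mem h'.2 (H₀.inv_mem h.2)
    subst hab
    have : h.1 = h'.1 := mul_left_cancel heq'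
    exact Prod.ext rfl (Subtype.ext this)
  have hcardV : Nat.card (Fin 4 → ZMod 2) = 16 := by
    rw [Nat.card_eq_fintype_card, Fintype.card_fun, ZMod.card, Fintype.card_fin]; norm_num
  have hle1 : 16 * Nat.card H₀ ≤ Nat.card (Subgroup.centralizer ({z} : Set G)) := by
    have := Nat.card_le_card_of_injective φ hφinj
    rwa [Nat.card_prod, hcardV] at this
  obtain ⟨fH, hfH⟩ : ∃ fH : Fin 1344 → H₀, ∀ i, (fH i : G) = f i :=
    ⟨fun i => ⟨f i, hf i⟩, fun i => rfl⟩
  have hfinj : Function.Injective fH := by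
    intro i j h
    apply hdist
    intro a
    have : f i = f j := by
      have := congrArg Subtype.val h
      rwa [hfH, hfH] at this
    rw [this]
  have hle2 : 1344 ≤ Nat.card H₀ := by
    have := Nat.card_le_card_of_injective fH hfinj
    rwa [Nat.card_eq_fintype_card, Fintype.card_fin] at this
  have hH₀card : Nat.card H₀ = 1344 := by omega
  have hCcard : Nat.card (Subgroup.centralizer ({z} : Set G)) = 21504 := by omega
  have hφbij : Function.Bijective φ :=
    hφinj.bijective_of_nat_card_le (by rw [Nat.card_prod, hcardV, hH₀card, hCcard])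
  have hfbij : Function.Bijective fH :=
    hfinj.bijective_of_nat_card_le (by
      rw [hH₀card, Nat.card_eq_fintype_card, Fintype.card_fin])
  -- decomposition
  have hdec : ∀ g ∈ Subgroup.centralizer ({z} : Set G), ∃ t, ∃ h ∈ H₀, g = wOf t * h := by
    intro g hg
    obtain ⟨⟨t, h⟩, hp⟩ := hφbij.2 ⟨g, hg⟩
    refine ⟨t, h.1, h.2, ?_⟩
    have := congrArg Subtype.val hp
    rw [hφ] at this
    exact this.symm
  have hconjW : ∀ g ∈ Subgroup.centralizer ({z} : Set G), ∀ a, ∃ b,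
      g * wOf a * g⁻¹ = wOf b := by
    intro g hg a
    obtain ⟨t, h, hh, rfl⟩ := hdec g hg
    obtain ⟨b, hb⟩ := hnorm h hh a
    refine ⟨b, ?_⟩
    calc wOf t * h * wOf a * (wOf t * h)⁻¹ = wOf t * (h * wOf a * h⁻¹) * (wOf t)⁻¹ := by group
      _ = wOf t * wOf b * (wOf t)⁻¹ := by rw [hb]
      _ = wOf b := by rw [hwcomm t b, mul_inv_cancel_right]
  -- apply abstract_iso
  refine Cfsg.Agent.S2133.abstract_iso
    (ρ := (MulAction.toPermHom G (G ⧸ H₀)).comp (Subgroup.centralizer ({z} : Set G)).subtype)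
    (k := fun a => MulAction.toPermHom G (G ⧸ H₀) (wOf a))
    (fun a b => by rw [hadd, map_mul]) ((1 : G) : G ⧸ H₀) ?h1 ?h2 ?h3 ?h4 ?h5 (by omega) s hs
  case h1 =>
    intro g a
    obtain ⟨b, hb⟩ := hconjW g.1 g.2 a
    refine ⟨b, ?_⟩
    show MulAction.toPermHom G (G ⧸ H₀) g.1 * MulAction.toPermHom G (G ⧸ H₀) (wOf a) *
      (MulAction.toPermHom G (G ⧸ H₀) g.1)⁻¹ = MulAction.toPermHom G (G ⧸ H₀) (wOf b)
    rw [← map_inv, ← map_mul, ← map_mul, hb]
  case h2 =>
    intro g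
    obtain ⟨t, h, hh, hg⟩ := hdec g.1 g.2
    refine ⟨t, ?_⟩
    show ((g.1 * 1 : G) : G ⧸ H₀) = ((wOf t * 1 : G) : G ⧸ H₀)
    rw [hg, mul_one, mul_one, QuotientGroup.eq]
    have e : (wOf t * h)⁻¹ * wOf t = h⁻¹ := by group
    rw [e]
    exact H₀.inv_mem hh
  case h3 =>
    intro a b hab
    have hab' : ((wOf a * 1 : G) : G ⧸ H₀) = ((wOf b * 1 : G) : G ⧸ H₀) := hab
    rw [mul_one, mul_one, QuotientGroup.eq, hwinv] at hab'
    exact hwH a b hab'
  case h4 =>
    intro g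
    show MulAction.toPermHom G (G ⧸ H₀) g.1 *
      MulAction.toPermHom G (G ⧸ H₀) (wOf (Pi.single 0 1)) *
      (MulAction.toPermHom G (G ⧸ H₀) g.1)⁻¹ =
      MulAction.toPermHom G (G ⧸ H₀) (wOf (Pi.single 0 1))
    rw [← map_inv, ← map_mul, ← map_mul, hw0]
    have hgz := Subgroup.mem_centralizer_singleton_iff.mp g.2
    rw [hgz, mul_inv_cancel_right]
  case h5 =>
    intro g hg
    have hg' : ∀ a, (wOf a)⁻¹ * g.1 * wOf a ∈ H₀ := by
      intro a
      have h' : ((g.1 * (wOf a * 1) : G) : G ⧸ H₀) = ((wOf a * 1 : G) : G ⧸ H₀) := hg a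
      rw [mul_one, QuotientGroup.eq] at h'
      have h'' := H₀.inv_mem h'
      have e : ((g.1 * wOf a)⁻¹ * wOf a)⁻¹ = (wOf a)⁻¹ * g.1 * wOf a := by group
      rwa [e] at h''
    have hgH : g.1 ∈ H₀ := by
      have := hg' 0
      rwa [w0, inv_one, one_mul, mul_one] at this
    have hgcomm : ∀ a, g.1 * wOf a * g.1⁻¹ = wOf a := by
      intro a
      obtain ⟨b, hb⟩ := hnorm g.1⁻¹ (H₀.inv_mem hgH) a
      rw [inv_inv] at hb
      have hmem : wOf b * wOf a ∈ H₀ := by
        rw [← hb]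
        have e : g.1⁻¹ * wOf a * g.1 * wOf a = g.1⁻¹ * ((wOf a)⁻¹ * g.1 * wOf a) := by
          rw [hwinv]; group
        rw [e]
        exact H₀.mul_mem (H₀.inv_mem hgH) (hg' a)
      have hba : b = a := hwH b a hmem
      rw [hba] at hb
      calc g.1 * wOf a * g.1⁻¹ = g.1 * (g.1⁻¹ * wOf a * g.1) * g.1⁻¹ := by rw [hb]
        _ = wOf a := by group
    obtain ⟨i, hi⟩ := hfbij.2 ⟨g.1, hgH⟩
    obtain ⟨j, hj⟩ := hfbij.2 ⟨1, H₀.one_mem⟩
    have hi' : f i = g.1 := by
      have := congrArg Subtype.val hi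
      rwa [hfH] at this
    have hj' : f j = 1 := by
      have := congrArg Subtype.val hj
      rwa [hfH] at this
    have hij : i = j := by
      apply hdist
      intro a
      rw [hi', hj', hgcomm a]; group
    rw [hij, hj'] at hi'
    exact Subtype.ext hi'.symm

end Cfsg.Agent.Lib.Helper61.HeCASM
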