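import Mathlib
import Cfsg.Agent.Lib.Helper23.Syl
import Cfsg.Agent.Lib.Helper23.Syl2
import Cfsg.Agent.Lib.Helper23.SylInter
import Cfsg.Agent.Lib.Helper76.SylPrime

/-! S0496 piece N10SET (helper61 for helper11): order 720, `n_3 = 10`, Sylow 3-subgroups TI:
the 2-transitive set-up on the ten Sylow 3-subgroups. -/

set_option autoImplicit false
set_option linter.unusedSectionVars false
set_option linter.unusedVariables false

namespace Cfsg.Agent.S496

open Subgroup Cfsg.Agent.Lib.Helper23 Cfsg.Agent.Lib.Helper76.SylPrime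

section
variable {G : Type*} [Group G] [Finite G]

theorem n10set_compl (h10 : Nat.card (Sylow 3 G) = 10) (P : Sylow 3 G) :
    ({Q : Sylow 3 G | Q ≠ P} : Set (Sylow 3 G)).ncard = 9 := by
  classical
  have hfin : Fintype (Sylow 3 G) := Fintype.ofFinite _
  have h7 : {Q : Sylow 3 G | Q ≠ P} = ({P} : Set (Sylow 3 G))ᶜ := by
    ext Q
    simp
  rw [h7, Set.ncard_compl, Set.ncard_singleton, h10]

/-- (A) a Sylow 3-subgroup is transitive on the other nine -/
theorem n10set_trans (h9 : ∀ P : Sylow 3 G, Nat.card (P : Subgroup G) = 9)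
    (h10 : Nat.card (Sylow 3 G) = 10)
    (hTI : ∀ P Q : Sylow 3 G, P ≠ Q → (P : Subgroup G) ⊓ (Q : Subgroup G) = ⊥)
    (P Q₂ Q₃ : Sylow 3 G) (h2 : Q₂ ≠ P) (h3 : Q₃ ≠ P) :
    ∃ x ∈ (P : Subgroup G), x • Q₂ = Q₃ := by
  classical
  have hfin : Fintype (Sylow 3 G) := Fintype.ofFinite _
  have h4 : Nat.card (MulAction.orbit (P : Subgroup G) Q₂) = 9 := by
    rw [sylow_card_orbit_eq_index]
    have h5 := card_inf_mul_index_subgroupOf (P : Subgroup G) (Q₂ : Subgroup G)
    rw [hTI P Q₂ (Ne.symm h2), Subgroup.card_bot, one_mul, h9 P] at h5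
    exact h5
  have h5 : MulAction.orbit (P : Subgroup G) Q₂ ⊆ {Q : Sylow 3 G | Q ≠ P} := by
    rintro Q ⟨⟨x, hx⟩, rfl⟩ hQ
    apply h2
    have h6 : x • Q₂ = P := hQ
    have h7 : x⁻¹ • P = P :=
      Sylow.smul_eq_iff_mem_normalizer.mpr (le_normalizer (inv_mem hx))
    rw [← h7, ← h6, inv_smul_smul]
  have h7 : MulAction.orbit (P : Subgroup G) Q₂ = {Q : Sylow 3 G | Q ≠ P} := by
    apply Set.eq_of_subset_of_ncard_le h5
    rw [← Nat.card_coe_set_eq (MulAction.orbit (P : Subgroup G) Q₂), h4, n10set_compl h10 P]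
  have h8 : Q₃ ∈ MulAction.orbit (P : Subgroup G) Q₂ := by
    rw [h7]
    exact h3
  obtain ⟨⟨x, hx⟩, hx2⟩ := h8
  exact ⟨x, hx, hx2⟩

/-- (C) regularity -/
theorem n10set_reg
    (hTI : ∀ P Q : Sylow 3 G, P ≠ Q → (P : Subgroup G) ⊓ (Q : Subgroup G) = ⊥)
    (P Q : Sylow 3 G) (hPQ : P ≠ Q) (y : G) (hy : y ∈ (P : Subgroup G)) (hyQ : y • Q = Q) :
    y = 1 := by
  have h1 : y ∈ ((P : Subgroup G) ⊓ (Q : Subgroup G) : Subgroup G) := by
    rw [← P.isPGroup'.inf_normalizer_sylow Q]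
    exact ⟨hy, Sylow.smul_eq_iff_mem_normalizer.mp hyQ⟩
  rw [hTI P Q hPQ, Subgroup.mem_bot] at h1
  exact h1

/-- (D) an element of the two-point stabiliser fixing `y • Q` commutes with `y ∈ P` -/
theorem n10set_comm
    (hTI : ∀ P Q : Sylow 3 G, P ≠ Q → (P : Subgroup G) ⊓ (Q : Subgroup G) = ⊥)
    (P Q : Sylow 3 G) (hPQ : P ≠ Q) (s : G) (hsP : s • P = P) (hsQ : s • Q = Q)
    (y : G) (hy : y ∈ (P : Subgroup G)) (hfix : s • (y • Q) = y • Q) : s * y = y * s := by
  have hsN : s ∈ normalizer ((P : Subgroup G) : Set G) := Sylow.smul_eq_iff_mem_normalizer.mp hsP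
  have hy' : s * y * s⁻¹ ∈ (P : Subgroup G) := (mem_normalizer_iff.mp hsN y).mp hy
  have hz : (y⁻¹ * (s * y * s⁻¹)) • Q = Q := by
    have h4 : s⁻¹ • Q = Q := by rw [inv_smul_eq_iff]; exact hsQ.symm
    rw [mul_smul, mul_smul, mul_smul, h4, hfix, inv_smul_smul]
  have h1 := n10set_reg hTI P Q hPQ _ (mul_mem (inv_mem hy) hy') hz
  have h5 : s * y * s⁻¹ = y := by
    have := congrArg (fun w => y * w) h1
    simpa using this
  calc s * y = s * y * s⁻¹ * s := by group
    _ = y * s := by rw [h5]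

/-- (B) the two-point stabiliser has order 8 -/
theorem n10set_card (h : Nat.card G = 720)
    (h9 : ∀ P : Sylow 3 G, Nat.card (P : Subgroup G) = 9)
    (h10 : Nat.card (Sylow 3 G) = 10)
    (hTI : ∀ P Q : Sylow 3 G, P ≠ Q → (P : Subgroup G) ⊓ (Q : Subgroup G) = ⊥)
    (P Q : Sylow 3 G) (hPQ : P ≠ Q) :
    Nat.card {s : G // s • P = P ∧ s • Q = Q} = 8 := by
  classical
  have hNc : Nat.card (normalizer ((P : Subgroup G) : Set G)) = 72 := by
    have := card_normalizer_sylow_mul P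
    rw [h10, h] at this
    omega
  have horb : MulAction.orbit (normalizer ((P : Subgroup G) : Set G)) Q =
      {R : Sylow 3 G | R ≠ P} := by
    ext R
    constructor
    · rintro ⟨⟨n, hn⟩, rfl⟩ hR
      apply hPQ
      have h6 : n • Q = P := hR
      have h7 : n⁻¹ • P = P := Sylow.smul_eq_iff_mem_normalizer.mpr (inv_mem hn)
      rw [← h7, ← h6, inv_smul_smul]
    · intro hR
      obtain ⟨y, hy, hyQ⟩ := n10set_trans h9 h10 hTI P Q R (Ne.symm hPQ) hR
      exact ⟨⟨y, le_normalizer hy⟩, hyQ⟩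
  have h1 := MulAction.index_stabilizer (normalizer ((P : Subgroup G) : Set G)) Q
  have h2 := Subgroup.card_mul_index
    (MulAction.stabilizer (normalizer ((P : Subgroup G) : Set G)) Q)
  rw [h1, horb, n10set_compl h10 P, hNc] at h2
  let e : {s : G // s • P = P ∧ s • Q = Q} ≃
      MulAction.stabilizer (normalizer ((P : Subgroup G) : Set G)) Q :=
    { toFun := fun s => ⟨⟨s.1, Sylow.smul_eq_iff_mem_normalizer.mp s.2.1⟩, s.2.2⟩
      invFun := fun x => ⟨x.1.1, Sylow.smul_eq_iff_mem_normalizer.mpr x.1.2, x.2⟩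
      left_inv := fun s => rfl
      right_inv := fun x => rfl }
  rw [Nat.card_congr e]
  omega

end

section
variable {G : Type*} [Group G] [Finite G] [IsSimpleGroup G]

/-- (E) an involution of the two-point stabiliser acts fixed-point-freely on `P` -/
theorem n10set_invol (h : Nat.card G = 720)
    (h9 : ∀ P : Sylow 3 G, Nat.card (P : Subgroup G) = 9)
    (h10 : Nat.card (Sylow 3 G) = 10)
    (hTI : ∀ P Q : Sylow 3 G, P ≠ Q → (P : Subgroup G) ⊓ (Q : Subgroup G) = ⊥)
    (P Q : Sylow 3 G) (hPQ : P ≠ Q) (s : G) (hsP : s • P = P) (hsQ : s • Q = Q)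
    (hs1 : s ≠ 1) (hs2 : s ^ 2 = 1) (y : G) (hy : y ∈ (P : Subgroup G))
    (hc : s * y = y * s) : y = 1 := by
  classical
  have hG : ¬ IsMulCommutative G := not_comm_of_simple_of_not_prime (by rw [h]; norm_num)
  have hn : Nat.card (Sylow 3 G) ≠ 1 := by rw [h10]; norm_num
  have hmem : ∀ z : G, z ∈ ((P : Subgroup G) ⊓ centralizer {s} : Subgroup G) ↔
      z ∈ (P : Subgroup G) ∧ s * z = z * s := by
    intro z
    rw [Subgroup.mem_inf, Subgroup.mem_centralizer_iff]
    constructor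
    · rintro ⟨h1, h2⟩
      exact ⟨h1, h2 s rfl⟩
    · rintro ⟨h1, h2⟩
      refine ⟨h1, fun g hg => ?_⟩
      rw [Set.mem_singleton_iff] at hg
      rw [hg]; exact h2
  have hinj : Function.Injective
      (fun z : ((P : Subgroup G) ⊓ centralizer {s} : Subgroup G) => (z : G) • Q) := by
    intro z z' hzz
    have hzz' : (z : G) • Q = (z' : G) • Q := hzz
    have h1 : ((z' : G)⁻¹ * (z : G)) • Q = Q := by
      rw [mul_smul, hzz', inv_smul_smul]
    have h2 := n10set_reg hTI P Q hPQ _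
      (mul_mem (inv_mem ((hmem _).mp z'.2).1) ((hmem _).mp z.2).1) h1
    apply Subtype.ext
    calc (z : G) = (z' : G) * ((z' : G)⁻¹ * (z : G)) := by group
      _ = (z' : G) := by rw [h2, mul_one]
  have hP : P ∉ Set.range
      (fun z : ((P : Subgroup G) ⊓ centralizer {s} : Subgroup G) => (z : G) • Q) := by
    rintro ⟨z, hz⟩
    apply hPQ
    have h6 : (z : G) • Q = P := hz
    have h7 : (z : G) • P = P :=
      Sylow.smul_eq_iff_mem_normalizer.mpr (le_normalizer ((hmem _).mp z.2).1)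
    exact (smul_left_cancel (z : G) (h6.trans h7.symm)).symm
  have hFix : MulAction.fixedBy (Sylow 3 G) s = insert P (Set.range
      (fun z : ((P : Subgroup G) ⊓ centralizer {s} : Subgroup G) => (z : G) • Q)) := by
    ext R
    rw [MulAction.mem_fixedBy, Set.mem_insert_iff]
    constructor
    · intro hR
      by_cases hRP : R = P
      · exact Or.inl hRP
      · right
        obtain ⟨z, hz, hzQ⟩ := n10set_trans h9 h10 hTI P Q R (Ne.symm hPQ) hRP
        rw [← hzQ] at hR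
        exact ⟨⟨z, (hmem z).mpr ⟨hz, n10set_comm hTI P Q hPQ s hsP hsQ z hz hR⟩⟩, hzQ⟩
    · rintro (rfl | ⟨z, rfl⟩)
      · exact hsP
      · show s • ((z : G) • Q) = (z : G) • Q
        rw [← mul_smul, ((hmem _).mp z.2).2, mul_smul, hsQ]
  have hcard : (MulAction.fixedBy (Sylow 3 G) s).ncard =
      Nat.card ((P : Subgroup G) ⊓ centralizer {s} : Subgroup G) + 1 := by
    rw [hFix, Set.ncard_insert_of_notMem hP (Set.toFinite _), ← Nat.card_coe_set_eq,
      Nat.card_range_of_injective hinj]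
  have h4 := fix_mod_four hG hn s hs1 hs2
  have hlt := fix_lt hG hn s hs1
  rw [hcard, h10] at h4 hlt
  have hdvd : Nat.card ((P : Subgroup G) ⊓ centralizer {s} : Subgroup G) ∣ 9 := by
    rw [← h9 P]
    exact Subgroup.card_dvd_of_le inf_le_left
  have hle := Nat.le_of_dvd (by norm_num) hdvd
  have hone : Nat.card ((P : Subgroup G) ⊓ centralizer {s} : Subgroup G) = 1 := by
    generalize Nat.card ((P : Subgroup G) ⊓ centralizer {s} : Subgroup G) = c at h4 hlt hdvd hle
    interval_cases c <;> omega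
  have hbot := Subgroup.card_eq_one.mp hone
  have hyC : y ∈ ((P : Subgroup G) ⊓ centralizer {s} : Subgroup G) := (hmem y).mpr ⟨hy, hc⟩
  rw [hbot, Subgroup.mem_bot] at hyC
  exact hyC

/-- (F) every nontrivial element of the two-point stabiliser acts fixed-point-freely on `P` -/
theorem n10set_free (h : Nat.card G = 720)
    (h9 : ∀ P : Sylow 3 G, Nat.card (P : Subgroup G) = 9)
    (h10 : Nat.card (Sylow 3 G) = 10)
    (hTI : ∀ P Q : Sylow 3 G, P ≠ Q → (P : Subgroup G) ⊓ (Q : Subgroup G) = ⊥)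
    (P Q : Sylow 3 G) (hPQ : P ≠ Q) (s : G) (hsP : s • P = P) (hsQ : s • Q = Q)
    (hs1 : s ≠ 1) (y : G) (hy : y ∈ (P : Subgroup G)) (hc : s * y = y * s) : y = 1 := by
  have hpowP : ∀ k : ℕ, (s ^ k) • P = P := fun k =>
    MulAction.mem_stabilizer_iff.mp (pow_mem (MulAction.mem_stabilizer_iff.mpr hsP) k)
  have hpowQ : ∀ k : ℕ, (s ^ k) • Q = Q := fun k =>
    MulAction.mem_stabilizer_iff.mp (pow_mem (MulAction.mem_stabilizer_iff.mpr hsQ) k)
  have hpowc : ∀ k : ℕ, s ^ k * y = y * s ^ k := fun k =>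
    ((show Commute s y from hc).pow_left k).eq
  have hs8 : s ^ 8 = 1 := by
    have hT := n10set_card h h9 h10 hTI P Q hPQ
    have hmemT : s ∈ (MulAction.stabilizer G P ⊓ MulAction.stabilizer G Q : Subgroup G) :=
      ⟨MulAction.mem_stabilizer_iff.mpr hsP, MulAction.mem_stabilizer_iff.mpr hsQ⟩
    have hTc : Nat.card (MulAction.stabilizer G P ⊓ MulAction.stabilizer G Q : Subgroup G) = 8 := by
      rw [← hT]
      exact Nat.card_congr (Equiv.refl _)
    have h1 : (⟨s, hmemT⟩ :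
        (MulAction.stabilizer G P ⊓ MulAction.stabilizer G Q : Subgroup G)) ^ 8 = 1 := by
      rw [← hTc]; exact pow_card_eq_one'
    have h2 := congrArg Subtype.val h1
    exact h2
  by_cases h2 : s ^ 2 = 1
  · exact n10set_invol h h9 h10 hTI P Q hPQ s hsP hsQ hs1 h2 y hy hc
  · by_cases h4 : s ^ 4 = 1
    · refine n10set_invol h h9 h10 hTI P Q hPQ (s ^ 2) (hpowP 2) (hpowQ 2) h2 ?_ y hy (hpowc 2)
      rw [← pow_mul]; exact h4
    · refine n10set_invol h h9 h10 hTI P Q hPQ (s ^ 4) (hpowP 4) (hpowQ 4) h4 ?_ y hy (hpowc 4)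
      rw [← pow_mul]; exact hs8

/-- S0496 piece N10SET -/
theorem n10_setup (h : Nat.card G = 720)
    (h10 : Nat.card (Sylow 3 G) = 10)
    (hTI : ∀ P Q : Sylow 3 G, P ≠ Q → (P : Subgroup G) ⊓ (Q : Subgroup G) = ⊥) :
    ∃ P Q : Sylow 3 G, P ≠ Q ∧
      Nat.card {s : G // s • P = P ∧ s • Q = Q} = 8 ∧
      (∀ s : G, s • P = P → s • Q = Q → s ≠ 1 → ∀ R : Sylow 3 G, s • R = R → R = P ∨ R = Q) ∧
      (∃ g : G, g • P = Q ∧ g • Q = P) ∧
      (∀ a b : G, a • P = P → a • Q = Q → b • P = P → b • Q = Q → a ≠ 1 → b ≠ 1 →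
        a ^ 2 = 1 → b ^ 2 = 1 → a = b) := by
  have h9 : ∀ P : Sylow 3 G, Nat.card (P : Subgroup G) = 9 := fun P =>
    sylow_card_of_eq (p := 3) (k := 2) (m := 80) (by rw [h]; norm_num) (by norm_num) P
  have hnt : Nontrivial (Sylow 3 G) :=
    Finite.one_lt_card_iff_nontrivial.mp (by rw [h10]; norm_num)
  obtain ⟨P, Q, hPQ⟩ := exists_pair_ne (Sylow 3 G)
  refine ⟨P, Q, hPQ, n10set_card h h9 h10 hTI P Q hPQ, ?_, ?_, ?_⟩
  · -- (G)
    intro s hsP hsQ hs1 R hR
    by_cases hRP : R = P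
    · exact Or.inl hRP
    · right
      obtain ⟨y, hy, hyQ⟩ := n10set_trans h9 h10 hTI P Q R (Ne.symm hPQ) hRP
      rw [← hyQ] at hR
      have hc := n10set_comm hTI P Q hPQ s hsP hsQ y hy hR
      have hy1 := n10set_free h h9 h10 hTI P Q hPQ s hsP hsQ hs1 y hy hc
      rw [← hyQ, hy1, one_smul]
  · -- (H)
    obtain ⟨g₀, hg₀⟩ := MulAction.exists_smul_eq G P Q
    have hR : g₀ • Q ≠ Q := by
      intro hR
      apply hPQ
      have := hR.trans hg₀.symm
      exact (smul_left_cancel g₀ this).symm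
    obtain ⟨y, hy, hyR⟩ := n10set_trans h9 h10 hTI Q (g₀ • Q) P hR hPQ
    refine ⟨y * g₀, ?_, ?_⟩
    · rw [mul_smul, hg₀]
      exact Sylow.smul_eq_iff_mem_normalizer.mpr (le_normalizer hy)
    · rw [mul_smul, hyR]
  · -- (I)
    intro a b haP haQ hbP hbQ ha1 hb1 ha2 hb2
    have hPcomm : ∀ u v : G, u ∈ (P : Subgroup G) → v ∈ (P : Subgroup G) → u * v = v * u := by
      intro u v hu hv
      have := (IsPGroup.isMulCommutative_of_card_eq_prime_sq (p := 3) (G := (P : Subgroup G))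
        (by rw [h9 P]; norm_num)).is_comm.comm ⟨u, hu⟩ ⟨v, hv⟩
      exact congrArg Subtype.val this
    -- an involution of the stabiliser inverts `P`
    have hinv : ∀ c : G, c • P = P → c • Q = Q → c ≠ 1 → c ^ 2 = 1 →
        ∀ y ∈ (P : Subgroup G), c * y * c⁻¹ = y⁻¹ := by
      intro c hcP hcQ hc1 hc2 y hy
      have hcN : c ∈ normalizer ((P : Subgroup G) : Set G) :=
        Sylow.smul_eq_iff_mem_normalizer.mp hcP
      have hy' : c * y * c⁻¹ ∈ (P : Subgroup G) := (mem_normalizer_iff.mp hcN y).mp hy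
      have hcinv : c⁻¹ = c := by
        rw [inv_eq_iff_mul_eq_one, ← pow_two]; exact hc2
      have hw : c * (y * (c * y * c⁻¹)) = (y * (c * y * c⁻¹)) * c := by
        have e1 : c * (y * (c * y * c⁻¹)) = (c * y * c⁻¹) * (c * c) * y * c⁻¹ := by group
        rw [e1, ← pow_two, hc2, mul_one, hcinv]
        rw [hcinv] at hy'
        rw [hPcomm y (c * y * c) hy hy']
      have h1 := n10set_invol h h9 h10 hTI P Q hPQ c hcP hcQ hc1 hc2 _ (mul_mem hy hy') hw
      exact (eq_inv_of_mul_eq_one_right h1)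
    have hab : ∀ y ∈ (P : Subgroup G), (a * b) * y = y * (a * b) := by
      intro y hy
      have h1 := hinv b hbP hbQ hb1 hb2 y hy
      have h2 := hinv a haP haQ ha1 ha2 y⁻¹ (inv_mem hy)
      rw [inv_inv] at h2
      calc (a * b) * y = a * (b * y * b⁻¹) * a⁻¹ * (a * b) := by group
        _ = y * (a * b) := by rw [h1, h2]
    have habP : (a * b) • P = P := by rw [mul_smul, hbP, haP]
    have habQ : (a * b) • Q = Q := by rw [mul_smul, hbQ, haQ]
    by_contra hne
    have hab1 : a * b ≠ 1 := by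
      intro h1
      apply hne
      have hbinv : b⁻¹ = b := by
        rw [inv_eq_iff_mul_eq_one, ← pow_two]; exact hb2
      rw [← hbinv]
      exact eq_inv_of_mul_eq_one_left h1
    have hPne : (P : Subgroup G) ≠ ⊥ := by
      intro hb
      have := h9 P
      rw [hb, Subgroup.card_bot] at this
      omega
    obtain ⟨⟨y, hy⟩, hy1⟩ := (Subgroup.ne_bot_iff_exists_ne_one.mp hPne)
    exact hy1 (Subtype.ext
      (n10set_free h h9 h10 hTI P Q hPQ (a * b) habP habQ hab1 y hy (hab y hy)))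

end

end Cfsg.Agent.S496
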