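import Mathlib

/-!
# Project T2 (helper99, S1074), piece NOTMEM: an element fixing the base point and the base line
but lying outside `W` is not in `T` (two-level coset chain uniqueness).
-/

set_option autoImplicit false

namespace Cfsg.Agent.Lib.Helper99.T2

open scoped commutatorElement

theorem t2_not_mem_of_chain {Γ : Type*} [Group Γ] {Ω : Type*} [MulAction Γ Ω] {Λ : Type*}
    [MulAction Γ Λ] (T P W : Subgroup Γ) (n m : ℕ) (u : Fin n → Γ) (t : Fin m → Γ) (ω : Ω)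
    (l : Λ) (i0 : Fin n) (j0 : Fin m) (hu0 : u i0 = 1) (ht0 : t j0 = 1)
    (hdecT : ∀ g ∈ T, ∃ i, ∃ k ∈ P, g = u i * k) (hfixP : ∀ k ∈ P, k • ω = ω)
    (hinjU : ∀ i j, u i • ω = u j • ω → i = j)
    (hdecP : ∀ g ∈ P, ∃ j, ∃ w ∈ W, g = t j * w) (hfixW : ∀ w ∈ W, w • l = l)
    (hinjT : ∀ i j, t i • l = t j • l → i = j)
    (b : Γ) (hbω : b • ω = ω) (hbl : b • l = l) (hbW : b ∉ W) : b ∉ T := by
  intro hbT
  obtain ⟨i, k, hk, hb⟩ := hdecT b hbT
  have hi : i = i0 := by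
    apply hinjU
    rw [hu0, one_smul, ← hfixP k hk, ← mul_smul, ← hb, hbω, hfixP k hk]
  have hbP : b ∈ P := by
    rw [hb, hi, hu0, one_mul]
    exact hk
  obtain ⟨j, w, hw, hb'⟩ := hdecP b hbP
  have hj : j = j0 := by
    apply hinjT
    rw [ht0, one_smul, ← hfixW w hw, ← mul_smul, ← hb', hbl, hfixW w hw]
  apply hbW
  rw [hb', hj, ht0, one_mul]
  exact hw

end Cfsg.Agent.Lib.Helper99.T2
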