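import Mathlib

/-! Thompson's transfer lemma (generalized form) and normal 2-complements through a subgroup of
index two with cyclic Sylow 2-subgroups (helper61). -/

set_option autoImplicit false

namespace Cfsg.Agent.Lib.Helper61

open Subgroup MulAction

/-- the sign homomorphism attached to a subgroup of index two -/
noncomputable def signHom {K : Type*} [Group K] (M : Subgroup K) (h : M.index = 2) : K →* ℤˣ where
  toFun k := by classical exact if k ∈ M then 1 else -1
  map_one' := by simp [M.one_mem]
  map_mul' a b := by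
    classical
    by_cases ha : a ∈ M <;> by_cases hb : b ∈ M <;>
      simp [Subgroup.mul_mem_iff_of_index_two h, ha, hb]

theorem signHom_mem {K : Type*} [Group K] (M : Subgroup K) (h : M.index = 2) {k : K}
    (hk : k ∈ M) : signHom M h k = 1 := by
  classical
  simp [signHom, hk]

theorem signHom_not_mem {K : Type*} [Group K] (M : Subgroup K) (h : M.index = 2) {k : K}
    (hk : k ∉ M) : signHom M h k = -1 := by
  classical
  simp [signHom, hk]

/-- **Thompson's transfer lemma**, generalized. Let `S` be a Sylow 2-subgroup of `G`, `M` a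
subgroup of index 2 in `S` such that every element of `S` outside `M` has order greater than
`2^(n-1)`, and `x ∈ S` of order `2^n` with no `G`-conjugate in `M`. Then `G` has a normal subgroup
of index 2 not containing `x`. -/
theorem thompson_transfer {G : Type*} [Group G] [Finite G] (S : Sylow 2 G) (M : Subgroup G)
    (hM : M.relIndex (S : Subgroup G) = 2)
    (n : ℕ) (hord : ∀ y ∈ (S : Subgroup G), y ∉ M → 2 ^ (n - 1) < orderOf y)
    (x : G) (hxn : orderOf x = 2 ^ n) (hcon : ∀ g : G, g * x * g⁻¹ ∉ M) :
    ∃ N : Subgroup G, N.Normal ∧ N.index = 2 ∧ x ∉ N := by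
  classical
  have hM' : (M.subgroupOf (S : Subgroup G)).index = 2 := hM
  let ϕ : (S : Subgroup G) →* ℤˣ := signHom (M.subgroupOf (S : Subgroup G)) hM'
  have : Fintype (Quotient (orbitRel (zpowers x) (G ⧸ (S : Subgroup G)))) := Fintype.ofFinite _
  have hodd : Odd (S : Subgroup G).index := by
    have h := S.not_dvd_index
    exact Nat.odd_iff.mpr (Nat.two_dvd_ne_zero.mp h)
  have key : MonoidHom.transfer ϕ x = -1 := by
    rw [MonoidHom.transfer_eq_prod_quotient_orbitRel_zpowers_quot]
    have hq : ∀ q : Quotient (orbitRel (zpowers x) (G ⧸ (S : Subgroup G))),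
        ϕ ⟨q.out.out⁻¹ * x ^ Function.minimalPeriod (x • ·) q.out * q.out.out,
          QuotientGroup.out_conj_pow_minimalPeriod_mem (S : Subgroup G) x q.out⟩ =
        (-1) ^ Function.minimalPeriod (x • ·) q.out := by
      intro q
      have hmem := QuotientGroup.out_conj_pow_minimalPeriod_mem (S : Subgroup G) x q.out
      have hdvd : Function.minimalPeriod (x • ·) q.out ∣ 2 ^ n := by
        rw [← MulAction.pow_smul_eq_iff_minimalPeriod_dvd, ← hxn, pow_orderOf_eq_one, one_smul]
      obtain ⟨j, hj, hjm⟩ := (Nat.dvd_prime_pow Nat.prime_two).1 hdvd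
      rcases Nat.eq_zero_or_pos j with hj0 | hjpos
      · -- minimal period one
        have hm1 : Function.minimalPeriod (x • ·) q.out = 1 := by rw [hjm, hj0, pow_zero]
        have hnot : q.out.out⁻¹ * x ^ Function.minimalPeriod (x • ·) q.out * q.out.out ∉ M := by
          rw [hm1, pow_one]
          have := hcon (q.out.out⁻¹)
          simpa using this
        have hpow : (-1 : ℤˣ) ^ Function.minimalPeriod (x • ·) q.out = -1 := by
          rw [hm1, pow_one]
        rw [hpow]
        apply signHom_not_mem
        rw [Subgroup.mem_subgroupOf]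
        exact hnot
      · -- minimal period an even power of two
        have hin : q.out.out⁻¹ * x ^ Function.minimalPeriod (x • ·) q.out * q.out.out ∈ M := by
          by_contra hnot
          have h1 := hord _ hmem hnot
          have h2 : orderOf (q.out.out⁻¹ * x ^ Function.minimalPeriod (x • ·) q.out * q.out.out) =
              orderOf (x ^ Function.minimalPeriod (x • ·) q.out) := by
            have := (MulAut.conj (q.out.out⁻¹)).orderOf_eq (x ^ Function.minimalPeriod (x • ·) q.out)
            simpa using this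
          rw [h2, hjm, orderOf_pow' _ (by positivity), hxn] at h1
          have h3 : Nat.gcd (2 ^ n) (2 ^ j) = 2 ^ j := Nat.gcd_eq_right (pow_dvd_pow 2 hj)
          rw [h3, Nat.pow_div hj (by norm_num)] at h1
          have h4 : 2 ^ (n - j) ≤ 2 ^ (n - 1) := Nat.pow_le_pow_right (by norm_num) (by omega)
          omega
        have heven : Even (Function.minimalPeriod (x • ·) q.out) := by
          rw [hjm]
          exact (Nat.even_pow.mpr ⟨even_two, by omega⟩)
        rw [heven.neg_one_pow]
        apply signHom_mem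
        rw [Subgroup.mem_subgroupOf]
        exact hin
    rw [Finset.prod_congr rfl (fun q _ => hq q), Finset.prod_pow_eq_pow_sum,
      ← index_eq_sum_minimalPeriod (S : Subgroup G) x]
    exact hodd.neg_one_pow
  refine ⟨(MonoidHom.transfer ϕ).ker, MonoidHom.normal_ker _, ?_, ?_⟩
  · rw [Subgroup.index_ker]
    have htop : (MonoidHom.transfer ϕ).range = ⊤ := by
      rw [eq_top_iff]
      intro u _
      rcases Int.units_eq_one_or u with h | h
      · rw [h]; exact one_mem _
      · rw [h, ← key]; exact ⟨x, rfl⟩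
    rw [htop, Subgroup.card_top, Nat.card_eq_fintype_card, Fintype.card_units_int]
  · rw [MonoidHom.mem_ker, key]
    decide

theorem factorization_two_of_eq {N n m : ℕ} (h : N = 2 ^ n * m) (hm : Odd m) :
    N.factorization 2 = n := by
  subst h
  have hm0 : m ≠ 0 := by rintro rfl; simp at hm
  have hm2 : ¬ 2 ∣ m := by
    intro h2
    exact (Nat.not_even_iff_odd.mpr hm) (even_iff_two_dvd.mpr h2)
  rw [Nat.factorization_mul (pow_ne_zero _ (by norm_num)) hm0]
  simp [Nat.prime_two.factorization_pow, Nat.factorization_eq_zero_of_not_dvd hm2]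

/-- If `N ⊴ G` has index 2, does not contain the Sylow 2-subgroup `S`, and `S ∩ N` contains an
element `c` with `2 * orderOf c = |S|` (so `S ∩ N` is cyclic), then `G` has a normal
2-complement. -/
theorem normal_complement_of_index_two_cyclic {G : Type*} [Group G] [Finite G] (S : Sylow 2 G)
    (N : Subgroup G) (hNn : N.Normal) (hN : N.index = 2) (hSN : ¬ (S : Subgroup G) ≤ N)
    (c : G) (hcS : c ∈ (S : Subgroup G)) (hcN : c ∈ N)
    (hord : 2 * orderOf c = Nat.card (S : Subgroup G)) :
    ∃ K : Subgroup G, K.Normal ∧ K.IsComplement' (S : Subgroup G) := by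
  have : Fact (Nat.Prime 2) := ⟨Nat.prime_two⟩
  -- orders
  obtain ⟨m, hm⟩ : ∃ m, m = (S : Subgroup G).index := ⟨_, rfl⟩
  have hmodd : Odd m := by
    rw [hm]
    exact Nat.odd_iff.mpr (Nat.two_dvd_ne_zero.mp S.not_dvd_index)
  obtain ⟨e, he⟩ : ∃ e, e = orderOf c := ⟨_, rfl⟩
  have hS : Nat.card (S : Subgroup G) = 2 * e := by rw [he]; exact hord.symm
  obtain ⟨j, hj⟩ := IsPGroup.iff_card.mp S.2
  have hj0 : j ≠ 0 := by
    rintro rfl
    rw [pow_zero] at hj
    omega
  obtain ⟨n, rfl⟩ : ∃ n, j = n + 1 := ⟨j - 1, by omega⟩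
  have he2 : e = 2 ^ n := by
    rw [hS, pow_succ] at hj
    omega
  have hG : Nat.card G = 2 * e * m := by
    rw [← hS, hm]; exact (S : Subgroup G).card_mul_index.symm
  have hNcard : Nat.card N = e * m := by
    have h1 := N.card_mul_index
    rw [hN, hG] at h1
    have : Nat.card N * 2 = (e * m) * 2 := by rw [h1]; ring
    exact Nat.eq_of_mul_eq_mul_right (by norm_num) this
  rcases Nat.eq_zero_or_pos n with hn0 | hn0
  · -- `N` itself has odd order
    subst hn0
    rw [pow_zero] at he2
    subst he2
    refine ⟨N, hNn, Subgroup.isComplement'_of_coprime ?_ ?_⟩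
    · rw [hNcard, hS, hG]; ring
    · rw [hNcard, hS]
      simpa using Nat.coprime_two_right.mpr hmodd
  -- S ⊓ N has order e
  have hrel : N.relIndex (S : Subgroup G) = 2 := by
    have h1 : N.relIndex (S : Subgroup G) ∣ N.index := Subgroup.relIndex_dvd_index_of_normal N _
    rw [hN] at h1
    rcases (Nat.dvd_prime Nat.prime_two).mp h1 with h2 | h2
    · exact absurd (Subgroup.relIndex_eq_one.mp h2) hSN
    · exact h2
  have hT : Nat.card ((S : Subgroup G) ⊓ N : Subgroup G) = e := by
    have h1 := Subgroup.card_mul_index (((S : Subgroup G) ⊓ N).subgroupOf (S : Subgroup G))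
    have h2 : (((S : Subgroup G) ⊓ N).subgroupOf (S : Subgroup G)).index = 2 :=
      (Subgroup.inf_relIndex_left (S : Subgroup G) N).trans hrel
    have h3 : Nat.card (((S : Subgroup G) ⊓ N).subgroupOf (S : Subgroup G)) =
        Nat.card ((S : Subgroup G) ⊓ N : Subgroup G) :=
      Nat.card_congr (Subgroup.subgroupOfEquivOfLe inf_le_left).toEquiv
    rw [h2, h3, hS] at h1
    omega
  -- the Sylow 2-subgroup of N
  have hT' : Nat.card (((S : Subgroup G) ⊓ N).subgroupOf N) = e := by
    rw [← hT]
    exact Nat.card_congr (Subgroup.subgroupOfEquivOfLe inf_le_right).toEquiv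
  have hfac : (Nat.card N).factorization 2 = n := by
    apply factorization_two_of_eq _ hmodd
    rw [hNcard, he2]
  let P' : Sylow 2 N := Sylow.ofCard (((S : Subgroup G) ⊓ N).subgroupOf N)
    (by rw [hT', hfac, he2])
  have hP'coe : (P' : Subgroup N) = ((S : Subgroup G) ⊓ N).subgroupOf N := rfl
  have hP'card : Nat.card (P' : Subgroup N) = e := by rw [hP'coe, hT']
  have hcyc : IsCyclic (P' : Subgroup N) := by
    have hcm : (⟨c, hcN⟩ : N) ∈ (P' : Subgroup N) := by
      rw [hP'coe, Subgroup.mem_subgroupOf]
      exact Subgroup.mem_inf.mpr ⟨hcS, hcN⟩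
    apply isCyclic_of_orderOf_eq_card (⟨⟨c, hcN⟩, hcm⟩ : (P' : Subgroup N))
    rw [hP'card, he, ← Subgroup.orderOf_coe, ← Subgroup.orderOf_coe]
  have hp : (Nat.card N).minFac = 2 := by
    rw [Nat.minFac_eq_two_iff, hNcard, he2]
    exact Dvd.dvd.mul_right (dvd_pow_self 2 hn0.ne') _
  have hcompl := IsCyclic.isComplement' hp hcyc
  obtain ⟨K₁, hK₁def⟩ : ∃ K₁ : Subgroup N, K₁ =
      (MonoidHom.transferSylow P' (hcyc.normalizer_le_centralizer hp)).ker := ⟨_, rfl⟩
  rw [← hK₁def] at hcompl
  have hK₁n : K₁.Normal := by rw [hK₁def]; exact MonoidHom.normal_ker _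
  have hK₁card : Nat.card K₁ = m := by
    have h1 := hcompl.card_mul_card
    rw [hP'card, hNcard] at h1
    have he0 : 0 < e := by rw [he2]; positivity
    have : e * Nat.card K₁ = e * m := by rw [← h1]; ring
    exact Nat.eq_of_mul_eq_mul_left he0 this
  have hK₁idx : K₁.index = e := by
    have h1 := K₁.card_mul_index
    rw [hK₁card, hNcard] at h1
    have hm0 : 0 < m := hmodd.pos
    have : m * K₁.index = m * e := by rw [h1]; ring
    exact Nat.eq_of_mul_eq_mul_left hm0 this
  have hcop : Nat.Coprime m e := by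
    rw [he2]
    exact Nat.Coprime.pow_right n (Nat.coprime_two_right.mpr hmodd)
  -- elements of N with x^m = 1 lie in K₁
  have hmem : ∀ y : N, y ^ m = 1 → y ∈ K₁ := by
    intro y hy
    rw [← QuotientGroup.eq_one_iff]
    have h1 : ((y : N ⧸ K₁)) ^ m = 1 := by
      rw [← QuotientGroup.mk_pow, hy]; rfl
    have h2 : ((y : N ⧸ K₁)) ^ e = 1 := by
      have : Nat.card (N ⧸ K₁) = e := hK₁idx
      rw [← this]; exact pow_card_eq_one'
    have h3 := pow_gcd_eq_one.mpr ⟨h1, h2⟩
    rwa [Nat.Coprime.gcd_eq_one hcop, pow_one] at h3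
  refine ⟨K₁.map N.subtype, ⟨?_⟩, ?_⟩
  · rintro _ ⟨k, hk, rfl⟩ g
    have hkm : k ^ m = 1 := by
      have h1 : (⟨k, hk⟩ : K₁) ^ Nat.card K₁ = 1 := pow_card_eq_one'
      rw [hK₁card] at h1
      have h2 := congrArg Subtype.val h1
      simpa using h2
    have hy : (⟨g * (k : G) * g⁻¹, hNn.conj_mem k k.2 g⟩ : N) ^ m = 1 := by
      apply Subtype.ext
      change (g * (k : G) * g⁻¹) ^ m = 1
      rw [conj_pow]
      have h2 : (k : G) ^ m = 1 := by
        have := congrArg Subtype.val hkm
        simpa using this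
      rw [h2]; group
    exact ⟨_, hmem _ hy, rfl⟩
  · apply Subgroup.isComplement'_of_coprime
    · rw [Subgroup.card_map_of_injective N.subtype_injective, hK₁card, hS, hG]; ring
    · rw [Subgroup.card_map_of_injective N.subtype_injective, hK₁card, hS]
      exact Nat.Coprime.mul_right (Nat.coprime_two_right.mpr hmodd) hcop

end Cfsg.Agent.Lib.Helper61
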