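import Mathlib
import Cfsg.Prelude.Def_CaseTheorems
import Cfsg.Agent.Lib.Helper61.Basic
import Cfsg.Agent.Lib.Helper61.PGroup

/-! Corollaries of Glauberman's Z*-theorem, stated with Z* as a hypothesis (helper61).
`main` is statement S3184 given the statement of S0215 for `G`. -/

set_option autoImplicit false

namespace Cfsg.Agent.Lib.Helper61.ZStarCor

open Subgroup Cfsg.Agent.Lib.Helper61

/-- a finite cyclic group has at most one involution -/
theorem cyc_inv_unique' {C : Type*} [Group C] [Finite C] [IsCyclic C] (x y : C)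
    (hx : orderOf x = 2) (hy : orderOf y = 2) : x = y := by
  classical
  have := Fintype.ofFinite C
  by_contra hne
  have h := IsCyclic.card_pow_eq_one_le (α := C) (n := 2) (by norm_num)
  have hx1 : x ≠ 1 := by
    rintro rfl
    rw [orderOf_one] at hx; omega
  have hy1 : y ≠ 1 := by
    rintro rfl
    rw [orderOf_one] at hy; omega
  have hsub : ({1, x, y} : Finset C) ⊆ Finset.univ.filter (fun a : C => a ^ 2 = 1) := by
    intro a ha
    simp only [Finset.mem_insert, Finset.mem_singleton] at ha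
    simp only [Finset.mem_filter, Finset.mem_univ, true_and]
    rcases ha with rfl | rfl | rfl
    · simp
    · rw [← hx]; exact pow_orderOf_eq_one _
    · rw [← hy]; exact pow_orderOf_eq_one _
  have hcard : ({1, x, y} : Finset C).card = 3 := by
    rw [Finset.card_insert_of_notMem, Finset.card_insert_of_notMem, Finset.card_singleton]
    · simpa using hne
    · simp only [Finset.mem_insert, Finset.mem_singleton, not_or]
      exact ⟨fun h => hx1 h.symm, fun h => hy1 h.symm⟩
  have := Finset.card_le_card hsub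
  omega

/-- The statement, assuming Glauberman's Z*-theorem for `G`. -/
theorem main {G : Type*} [Group G] [Finite G]
    (hZ : ∀ (P : Sylow 2 G) (u : G), orderOf u = 2 → u ∈ P →
      (∀ g : G, g * u * g⁻¹ ∈ P → g * u * g⁻¹ = u) →
      ∃ N : Subgroup G, N.Normal ∧ Odd (Nat.card N) ∧ ∀ g : G, (u * g * u⁻¹ * g⁻¹) ∈ N)
    (hCI : ∀ S T : Sylow 2 G, S ≠ T → ∃ U : Sylow 2 G,
      (S : Subgroup G) ⊓ (T : Subgroup G) ≤ (Subgroup.center ↥(U : Subgroup G)).map (U : Subgroup G).subtype)
    (S : Sylow 2 G) (C : Subgroup ↥(S : Subgroup G)) (_hC : C ≠ ⊥) (hCc : IsCyclic ↥C) (hCh : C.Characteristic)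
    (c : ↥(S : Subgroup G)) (hc : c ∈ C) (hc2 : orderOf c = 2) :
    ∀ g : G, (QuotientGroup.mk (s := Cfsg.oddCore G) (g * (c : G) * g⁻¹)) =
      QuotientGroup.mk (s := Cfsg.oddCore G) (c : G) := by
  classical
  have hp2 : Fact (Nat.Prime 2) := ⟨Nat.prime_two⟩
  obtain ⟨u, hu⟩ : ∃ u : G, u = (c : G) := ⟨_, rfl⟩
  have hu2 : orderOf u = 2 := by rw [hu, Subgroup.orderOf_coe]; exact hc2
  have huS : u ∈ (S : Subgroup G) := by rw [hu]; exact c.2
  -- (a) elements normalizing `S` centralize `u`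
  have hA : ∀ g : G, g ∈ normalizer ((S : Subgroup G) : Set G) → g * u * g⁻¹ = u := by
    intro g hg
    let α : ↥(S : Subgroup G) ≃* ↥(S : Subgroup G) := conjAut (S : Subgroup G) g
      (fun t ht => conj_mem_of_mem_normalizer hg ht)
      (fun t ht => conj_mem_of_mem_normalizer' hg ht)
    have h1 : α c ∈ C := by
      have := hCh.fixed α
      have h2 : c ∈ C.comap α.toMonoidHom := by rw [this]; exact hc
      exact h2
    have h3 : orderOf (α c) = 2 := by rw [MulEquiv.orderOf_eq]; exact hc2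
    have h4 := cyc_inv_unique' (⟨α c, h1⟩ : ↥C) ⟨c, hc⟩
      (by rw [Subgroup.orderOf_mk]; exact h3) (by rw [Subgroup.orderOf_mk]; exact hc2)
    have h5 : α c = c := congrArg Subtype.val h4
    have h6 : ((α c : ↥(S : Subgroup G)) : G) = g * (c : G) * g⁻¹ := rfl
    rw [hu, ← h6, h5]
  -- (a') the conjugate of `u` by `g` depends only on the Sylow subgroup `g • S`
  have hA' : ∀ g h : G, g • S = h • S → g * u * g⁻¹ = h * u * h⁻¹ := by
    intro g h hgh
    have h1 : (h⁻¹ * g) • S = S := by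
      rw [mul_smul, hgh, ← mul_smul, inv_mul_cancel, one_smul]
    have h2 := hA _ (Sylow.smul_eq_iff_mem_normalizer.mp h1)
    have h3 : g * u * g⁻¹ = h * (h⁻¹ * g * u * (h⁻¹ * g)⁻¹) * h⁻¹ := by group
    rw [h3, h2]
  -- (b) `u` is central in `S`, and its conjugates are central in the conjugates of `S`
  have hB : ∀ (g t : G), t ∈ ((g • S : Sylow 2 G) : Subgroup G) →
      t * (g * u * g⁻¹) = (g * u * g⁻¹) * t := by
    intro g t ht
    rw [mem_smul_sylow_iff] at ht
    have h1 := hA _ (Subgroup.le_normalizer ht)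
    have h2 : t * (g * u * g⁻¹) = g * (g⁻¹ * t * g * u * (g⁻¹ * t * g)⁻¹) * g⁻¹ * t := by group
    rw [h2, h1]
  have hmemT : ∀ g : G, g * u * g⁻¹ ∈ ((g • S : Sylow 2 G) : Subgroup G) := by
    intro g
    rw [mem_smul_sylow_iff]
    have : g⁻¹ * (g * u * g⁻¹) * g = u := by group
    rw [this]; exact huS
  -- (c)
  have hCc' : ∀ (g h : G) (U : Sylow 2 G),
      (∀ t ∈ (U : Subgroup G), t * (g * u * g⁻¹) = (g * u * g⁻¹) * t) → h • S = U →
      h * u * h⁻¹ = g * u * g⁻¹ := by
    intro g h U hU hh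
    have hUH : (U : Subgroup G) ≤ centralizer ({g * u * g⁻¹} : Set G) := by
      intro t ht
      rw [mem_centralizer_iff]
      intro x hx
      rw [Set.mem_singleton_iff] at hx
      rw [hx]; exact (hU t ht).symm
    have hTH : ((g • S : Sylow 2 G) : Subgroup G) ≤ centralizer ({g * u * g⁻¹} : Set G) := by
      intro t ht
      rw [mem_centralizer_iff]
      intro x hx
      rw [Set.mem_singleton_iff] at hx
      rw [hx]; exact (hB g t ht).symm
    obtain ⟨n, hn, hnk⟩ := exists_conj_mem_sylow U (centralizer ({g * u * g⁻¹} : Set G))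
      ((g • S : Sylow 2 G) : Subgroup G) hUH hTH (g • S : Sylow 2 G).2
    have h1 : (n⁻¹ * g) • S = U := by
      apply sylow_eq_of_le
      intro x hx
      rw [mem_smul_sylow_iff] at hx
      have h2 : n * x * n⁻¹ ∈ ((g • S : Sylow 2 G) : Subgroup G) := by
        rw [mem_smul_sylow_iff]
        have : g⁻¹ * (n * x * n⁻¹) * g = (n⁻¹ * g)⁻¹ * x * (n⁻¹ * g) := by group
        rw [this]; exact hx
      have h3 := hnk _ h2
      have : n⁻¹ * (n * x * n⁻¹) * n = x := by group
      rw [this] at h3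
      exact h3
    have h4 := hA' (n⁻¹ * g) h (h1.trans hh.symm)
    rw [← h4]
    rw [mem_centralizer_iff] at hn
    have h5 := hn (g * u * g⁻¹) rfl
    have h6 : n⁻¹ * g * u * (n⁻¹ * g)⁻¹ = n⁻¹ * (g * u * g⁻¹ * n) := by group
    rw [h6, h5]; group
  -- (d) weak closure
  have hD : ∀ g : G, g * u * g⁻¹ ∈ (S : Subgroup G) → g * u * g⁻¹ = u := by
    intro g hg
    by_cases hT : g • S = S
    · exact hA g (Sylow.smul_eq_iff_mem_normalizer.mp hT)
    -- `u` commutes with its conjugate
    have hcomm : (g * u * g⁻¹) * u = u * (g * u * g⁻¹) := by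
      have := hA _ (Subgroup.le_normalizer hg)
      have h2 : (g * u * g⁻¹) * u = (g * u * g⁻¹) * u * (g * u * g⁻¹)⁻¹ * (g * u * g⁻¹) := by
        group
      rw [h2, this]
    have hTH : ((g • S : Sylow 2 G) : Subgroup G) ≤ centralizer ({g * u * g⁻¹} : Set G) := by
      intro t ht
      rw [mem_centralizer_iff]
      intro x hx
      rw [Set.mem_singleton_iff] at hx
      rw [hx]; exact (hB g t ht).symm
    have hKH : zpowers u ≤ centralizer ({g * u * g⁻¹} : Set G) := by
      rw [zpowers_le, mem_centralizer_iff]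
      intro x hx
      rw [Set.mem_singleton_iff] at hx
      rw [hx]; exact hcomm
    have hK : IsPGroup 2 (zpowers u) := by
      apply IsPGroup.of_card (n := 1)
      rw [Nat.card_zpowers, hu2, pow_one]
    obtain ⟨n, hn, hnk⟩ := exists_conj_mem_sylow (g • S : Sylow 2 G)
      (centralizer ({g * u * g⁻¹} : Set G)) (zpowers u) hTH hKH hK
    have hn' : n * (g * u * g⁻¹) = (g * u * g⁻¹) * n := by
      rw [mem_centralizer_iff] at hn
      exact (hn (g * u * g⁻¹) rfl).symm
    -- `V = (n * g) • S` contains `u`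
    have huV : u ∈ (((n * g) • S : Sylow 2 G) : Subgroup G) := by
      rw [mem_smul_sylow_iff]
      have h1 := hnk u (mem_zpowers u)
      rw [mem_smul_sylow_iff] at h1
      have : (n * g)⁻¹ * u * (n * g) = g⁻¹ * (n⁻¹ * u * n) * g := by group
      rw [this]; exact h1
    have hcg : (n * g) * u * (n * g)⁻¹ = g * u * g⁻¹ := by
      have h1 : (n * g) * u * (n * g)⁻¹ = n * (g * u * g⁻¹) * n⁻¹ := by group
      rw [h1, hn']; group
    by_cases hV : (n * g) • S = S
    · rw [← hcg]
      exact hA _ (Sylow.smul_eq_iff_mem_normalizer.mp hV)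
    obtain ⟨U', hU'⟩ := hCI S ((n * g) • S) (fun h => hV h.symm)
    have h1 : u ∈ (Subgroup.center ↥(U' : Subgroup G)).map (U' : Subgroup G).subtype :=
      hU' (Subgroup.mem_inf.mpr ⟨huS, huV⟩)
    have h2 : g * u * g⁻¹ ∈ (Subgroup.center ↥(U' : Subgroup G)).map (U' : Subgroup G).subtype := by
      apply hU'
      refine Subgroup.mem_inf.mpr ⟨hg, ?_⟩
      rw [← hcg]; exact hmemT (n * g)
    rw [mem_center_map_iff] at h1 h2
    obtain ⟨h, hh⟩ := MulAction.exists_smul_eq G S U'
    have e1 := hCc' 1 h U' (by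
      intro t ht
      have := h1.2 t ht
      simpa using this) hh
    have e2 := hCc' g h U' h2.2 hh
    rw [← e2, e1]; group
  -- (e) apply Z*
  obtain ⟨N, hN, hNodd, hNc⟩ := hZ S u hu2 huS hD
  have hNle : N ≤ Cfsg.oddCore G := by
    apply le_sSup
    exact ⟨hN, (Nat.coprime_two_right).mpr hNodd⟩
  intro g
  rw [← hu, QuotientGroup.eq]
  apply hNle
  have huinv : u⁻¹ = u := by
    have h1 : u ^ 2 = 1 := by rw [← hu2]; exact pow_orderOf_eq_one u
    rw [inv_eq_iff_mul_eq_one, ← pow_two, h1]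
  have h1 := hNc g⁻¹
  have h2 := hN.conj_mem _ h1 g
  have h3 : (g * u * g⁻¹)⁻¹ * u = g * (u * g⁻¹ * u⁻¹ * g⁻¹⁻¹) * g⁻¹ := by
    rw [huinv]
    have : (g * u * g⁻¹)⁻¹ = g * u⁻¹ * g⁻¹ := by group
    rw [this, huinv]; group
  rw [h3]; exact h2

end Cfsg.Agent.Lib.Helper61.ZStarCor
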